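import Cfsg.Agent.Lib.ExtraCube.KleinBound
import Cfsg.Agent.Lib.HallHigman.Section
import Cfsg.Agent.Lib.PGroups.Special

/-!
# Sylow subgroups extraspecial of order `p³` and exponent `p`: local analysis

`Ctx P p z`: the element-wise description of an extraspecial group of order `p³` and exponent `p`
with centre generated by `z`.

* `Acts`, `radSub`: elements of `G` acting on `⟨z, y⟩` through a matrix;
* `exists_normalizing`: a Frattini argument moves an element acting as `diag (a, a⁻¹)` to `N_G(P)`.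
-/

set_option autoImplicit false
set_option linter.unusedSectionVars false
set_option linter.style.haveILetI false
set_option linter.unusedVariables false

open scoped MatrixGroups
open Subgroup Matrix

namespace Cfsg.Agent.Lib.ExtraCube.Basic

open Cfsg.Agent.Lib.Classical.SL2.Moebius

variable {G : Type*} [Group G] {p : ℕ} [hp : Fact p.Prime]

lemma pow_val_add {x : G} (hx : x ^ p = 1) (a b : ZMod p) :
    x ^ (a + b).val = x ^ a.val * x ^ b.val := by
  rw [ZMod.val_add, ← pow_add, ← pow_eq_pow_mod _ hx]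

lemma pow_val_mul {x : G} (hx : x ^ p = 1) (a b : ZMod p) :
    x ^ (a * b).val = (x ^ a.val) ^ b.val := by
  rw [ZMod.val_mul, ← pow_mul, ← pow_eq_pow_mod _ hx]

lemma pow_val_natCast {x : G} (hx : x ^ p = 1) (n : ℕ) : x ^ (n : ZMod p).val = x ^ n := by
  rw [ZMod.val_natCast, ← pow_eq_pow_mod _ hx]

lemma pow_val_one (x : G) : x ^ (1 : ZMod p).val = x := by
  rw [ZMod.val_one, pow_one]

lemma pow_val_zero (x : G) : x ^ (0 : ZMod p).val = 1 := by
  rw [ZMod.val_zero, pow_zero]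

lemma pow_eq_pow_iff_cast {x : G} (hx : orderOf x = p) {m n : ℕ} :
    x ^ m = x ^ n ↔ (m : ZMod p) = (n : ZMod p) := by
  rw [pow_eq_pow_iff_modEq, hx, ZMod.natCast_eq_natCast_iff]

/-! ### The matrix action on `⟨z, y⟩` -/

section Acts

variable (z y : G)

/-- The element of `⟨z, y⟩` with given coordinates. -/
def j (c : Fin 2 → ZMod p) : G := z ^ (c 0).val * y ^ (c 1).val

variable {z y}

lemma j_add (hzy : Commute z y) (hz : z ^ p = 1) (hy : y ^ p = 1) (c d : Fin 2 → ZMod p) :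
    j z y (c + d) = j z y c * j z y d := by
  simp only [j, Pi.add_apply, pow_val_add hz, pow_val_add hy]
  have h : Commute (y ^ (c 1).val) (z ^ (d 0).val) := (hzy.symm.pow_pow _ _)
  calc z ^ (c 0).val * z ^ (d 0).val * (y ^ (c 1).val * y ^ (d 1).val)
      = z ^ (c 0).val * (y ^ (c 1).val * z ^ (d 0).val) * y ^ (d 1).val := by
        rw [h.eq]; group
    _ = _ := by group

/-- `g` acts on `⟨z, y⟩` through the matrix `M`. -/
def Acts (z y : G) (g : G) (M : GL (Fin 2) (ZMod p)) : Prop :=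
  ∀ c : Fin 2 → ZMod p, g * j z y c * g⁻¹ = j z y ((M : Matrix (Fin 2) (Fin 2) (ZMod p)).mulVec c)

/-- The matrices induced by elements of `G`. -/
def radSub (z y : G) : Subgroup (GL (Fin 2) (ZMod p)) where
  carrier := {M | ∃ g : G, Acts z y g M}
  one_mem' := ⟨1, fun c => by simp⟩
  mul_mem' := by
    rintro M N ⟨g, hg⟩ ⟨h, hh⟩
    refine ⟨g * h, fun c => ?_⟩
    have : g * h * j z y c * (g * h)⁻¹ = g * (h * j z y c * h⁻¹) * g⁻¹ := by group
    rw [this, hh, hg, Matrix.mulVec_mulVec]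
    rfl
  inv_mem' := by
    rintro M ⟨g, hg⟩
    refine ⟨g⁻¹, fun c => ?_⟩
    have h1 := hg (((M⁻¹ : GL (Fin 2) (ZMod p)) : Matrix (Fin 2) (Fin 2) (ZMod p)).mulVec c)
    have h2 : (M : Matrix (Fin 2) (Fin 2) (ZMod p)).mulVec
        (((M⁻¹ : GL (Fin 2) (ZMod p)) : Matrix (Fin 2) (Fin 2) (ZMod p)).mulVec c) = c := by
      rw [Matrix.mulVec_mulVec, ← Matrix.GeneralLinearGroup.coe_mul, mul_inv_cancel]
      exact Matrix.one_mulVec c
    rw [h2] at h1
    rw [← h1]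
    group

/-- The upper unitriangular matrix. -/
noncomputable def E12 (t : ZMod p) : GL (Fin 2) (ZMod p) :=
  glOf 1 t 0 1 (by rw [mul_zero, mul_one, sub_zero]; exact one_ne_zero)

/-- The lower unitriangular matrix. -/
noncomputable def E21 (s : ZMod p) : GL (Fin 2) (ZMod p) :=
  glOf 1 0 s 1 (by rw [zero_mul, mul_one, sub_zero]; exact one_ne_zero)

/-- The diagonal matrix `diag (a, a⁻¹)`. -/
noncomputable def DD (a : ZMod p) (ha : a ≠ 0) : GL (Fin 2) (ZMod p) :=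
  glOf a 0 0 a⁻¹ (by
    rw [zero_mul, sub_zero, mul_inv_cancel₀ ha]; exact one_ne_zero)

lemma E12_add (s t : ZMod p) : E12 s * E12 t = E12 (s + t) := by
  apply gl_ext <;> simp [E12, gl_mul_apply]
  try ring

lemma E21_add (s t : ZMod p) : E21 s * E21 t = E21 (s + t) := by
  apply gl_ext <;> simp [E21, gl_mul_apply]
  try ring

lemma E12_zero : E12 (0 : ZMod p) = 1 := by
  apply gl_ext <;> simp [E12]

lemma E21_zero : E21 (0 : ZMod p) = 1 := by
  apply gl_ext <;> simp [E21]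

lemma E12_pow (t : ZMod p) (n : ℕ) : E12 t ^ n = E12 ((n : ZMod p) * t) := by
  induction n with
  | zero => simp [E12_zero]
  | succ n ih =>
    rw [pow_succ, ih, E12_add]
    congr 1
    push_cast
    ring

lemma E21_pow (t : ZMod p) (n : ℕ) : E21 t ^ n = E21 ((n : ZMod p) * t) := by
  induction n with
  | zero => simp [E21_zero]
  | succ n ih =>
    rw [pow_succ, ih, E21_add]
    congr 1
    push_cast
    ring

lemma E12_mem_of_mem {H : Subgroup (GL (Fin 2) (ZMod p))} {c : ZMod p} (hc : c ≠ 0)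
    (h : E12 c ∈ H) (t : ZMod p) : E12 t ∈ H := by
  have h1 := H.pow_mem h (t / c).val
  rw [E12_pow] at h1
  have : (((t / c).val : ℕ) : ZMod p) * c = t := by
    rw [ZMod.natCast_zmod_val]
    field_simp
  rwa [this] at h1

lemma E21_mem_of_mem {H : Subgroup (GL (Fin 2) (ZMod p))} {c : ZMod p} (hc : c ≠ 0)
    (h : E21 c ∈ H) (t : ZMod p) : E21 t ∈ H := by
  have h1 := H.pow_mem h (t / c).val
  rw [E21_pow] at h1
  have : (((t / c).val : ℕ) : ZMod p) * c = t := by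
    rw [ZMod.natCast_zmod_val]
    field_simp
  rwa [this] at h1

/-- The usual word for a diagonal matrix. -/
lemma DD_eq (a : ZMod p) (ha : a ≠ 0) :
    DD a ha = E12 a * E21 (-a⁻¹) * E12 a * (E12 (-1) * E21 1 * E12 (-1)) := by
  have h : a * a⁻¹ = 1 := mul_inv_cancel₀ ha
  apply gl_ext <;> simp [DD, E12, E21, gl_mul_apply] <;> grind

lemma DD_mem {H : Subgroup (GL (Fin 2) (ZMod p))} {c s : ZMod p} (hc : c ≠ 0) (hs : s ≠ 0)
    (h1 : E12 c ∈ H) (h2 : E21 s ∈ H) (a : ZMod p) (ha : a ≠ 0) : DD a ha ∈ H := by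
  rw [DD_eq]
  have e1 := E12_mem_of_mem hc h1
  have e2 := E21_mem_of_mem hs h2
  exact H.mul_mem (H.mul_mem (H.mul_mem (e1 _) (e2 _)) (e1 _))
    (H.mul_mem (H.mul_mem (e1 _) (e2 _)) (e1 _))

lemma conj_pow' (g x : G) (n : ℕ) : g * x ^ n * g⁻¹ = (g * x * g⁻¹) ^ n := by
  simp [conj_pow]

lemma acts_E12 {u : G} (hzy : Commute z y) (hz : z ^ p = 1) {t : ZMod p}
    (h1 : u * z * u⁻¹ = z) (h2 : u * y * u⁻¹ = z ^ t.val * y) : Acts z y u (E12 t) := by
  intro c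
  have h3 : u * (z ^ (c 0).val * y ^ (c 1).val) * u⁻¹ =
      (u * z * u⁻¹) ^ (c 0).val * (u * y * u⁻¹) ^ (c 1).val := by
    rw [← conj_pow', ← conj_pow']
    group
  simp only [j]
  rw [h3, h1, h2]
  have h4 : Commute (z ^ t.val) y := hzy.pow_left _
  rw [h4.mul_pow]
  simp only [E12, glOf, Matrix.GeneralLinearGroup.mkOfDetNeZero]
  have e0 : ((!![1, t; 0, 1] : Matrix (Fin 2) (Fin 2) (ZMod p))).mulVec c 0 = c 0 + t * c 1 := by
    simp [Matrix.mulVec, dotProduct, Fin.sum_univ_two]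
  have e1 : ((!![1, t; 0, 1] : Matrix (Fin 2) (Fin 2) (ZMod p))).mulVec c 1 = c 1 := by
    simp [Matrix.mulVec, dotProduct, Fin.sum_univ_two]
  change _ = z ^ (((!![1, t; 0, 1] : Matrix (Fin 2) (Fin 2) (ZMod p))).mulVec c 0).val *
    y ^ (((!![1, t; 0, 1] : Matrix (Fin 2) (Fin 2) (ZMod p))).mulVec c 1).val
  rw [e0, e1, pow_val_add hz, pow_val_mul hz]
  group

lemma acts_E21 {u : G} (hzy : Commute z y) (hy : y ^ p = 1) {s : ZMod p}
    (h1 : u * z * u⁻¹ = z * y ^ s.val) (h2 : u * y * u⁻¹ = y) : Acts z y u (E21 s) := by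
  intro c
  have h3 : u * (z ^ (c 0).val * y ^ (c 1).val) * u⁻¹ =
      (u * z * u⁻¹) ^ (c 0).val * (u * y * u⁻¹) ^ (c 1).val := by
    rw [← conj_pow', ← conj_pow']
    group
  simp only [j]
  rw [h3, h1, h2]
  have h4 : Commute z (y ^ s.val) := hzy.pow_right _
  rw [h4.mul_pow]
  simp only [E21, glOf, Matrix.GeneralLinearGroup.mkOfDetNeZero]
  have e0 : ((!![1, 0; s, 1] : Matrix (Fin 2) (Fin 2) (ZMod p))).mulVec c 0 = c 0 := by
    simp [Matrix.mulVec, dotProduct, Fin.sum_univ_two]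
  have e1 : ((!![1, 0; s, 1] : Matrix (Fin 2) (Fin 2) (ZMod p))).mulVec c 1 = s * c 0 + c 1 := by
    simp [Matrix.mulVec, dotProduct, Fin.sum_univ_two]
  change _ = z ^ (((!![1, 0; s, 1] : Matrix (Fin 2) (Fin 2) (ZMod p))).mulVec c 0).val *
    y ^ (((!![1, 0; s, 1] : Matrix (Fin 2) (Fin 2) (ZMod p))).mulVec c 1).val
  rw [e0, e1, pow_val_add hy, pow_val_mul hy]
  group

/-- The consequence of `DD a` being induced. -/
lemma acts_DD {h : G} {a : ZMod p} {ha : a ≠ 0} (hact : Acts z y h (DD a ha)) :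
    h * z * h⁻¹ = z ^ a.val ∧ h * y * h⁻¹ = y ^ (a⁻¹).val := by
  have e0 := hact ![1, 0]
  have e1 := hact ![0, 1]
  simp only [DD, glOf, Matrix.GeneralLinearGroup.mkOfDetNeZero] at e0 e1
  have f0 : (((!![a, 0; 0, a⁻¹] : Matrix (Fin 2) (Fin 2) (ZMod p)))).mulVec
      ![1, 0] = ![a, 0] := by
    ext i
    fin_cases i <;> simp [Matrix.mulVec, dotProduct, Fin.sum_univ_two]
  have f1 : (((!![a, 0; 0, a⁻¹] : Matrix (Fin 2) (Fin 2) (ZMod p)))).mulVec
      ![0, 1] = ![0, a⁻¹] := by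
    ext i
    fin_cases i <;> simp [Matrix.mulVec, dotProduct, Fin.sum_univ_two]
  constructor
  · have := e0.trans (congrArg (j z y) f0)
    simpa [j, pow_val_one, pow_val_zero] using this
  · have := e1.trans (congrArg (j z y) f1)
    simpa [j, pow_val_one, pow_val_zero] using this

end Acts

/-! ### The extraspecial context -/

/-- The element-wise description of an extraspecial group of order `p³` and exponent `p`. -/
structure Ctx (P : Subgroup G) (p : ℕ) (z : G) : Prop where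
  zmem : z ∈ P
  zne : z ≠ 1
  zcent : ∀ u ∈ P, u * z = z * u
  comm : ∀ a ∈ P, ∀ b ∈ P, a * b * a⁻¹ * b⁻¹ ∈ zpowers z
  exp : ∀ a ∈ P, a ^ p = 1
  card : Nat.card P = p ^ 3
  nd : ∀ a ∈ P, a ∉ zpowers z → ∃ b ∈ P, a * b * a⁻¹ * b⁻¹ ≠ 1

namespace Ctx

variable {P : Subgroup G} {z : G}

lemma orderOf_z (C : Ctx P p z) : orderOf z = p :=
  orderOf_eq_prime (C.exp z C.zmem) C.zne

lemma z_pow (C : Ctx P p z) : z ^ p = 1 := C.exp z C.zmem

lemma zpowers_le (C : Ctx P p z) : zpowers z ≤ P := by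
  rw [Subgroup.zpowers_le]
  exact C.zmem

lemma comm_of_zpowers (C : Ctx P p z) {ζ u : G} (hζ : ζ ∈ zpowers z) (hu : u ∈ P) :
    u * ζ = ζ * u := by
  obtain ⟨k, rfl⟩ := hζ
  have : Commute u z := C.zcent u hu
  exact (this.zpow_right k).eq

lemma mem_zpowers_iff_pow {z : G} (hz : z ^ p = 1) {x : G} : x ∈ zpowers z ↔ ∃ n : ℕ, z ^ n = x := by
  have h1 : IsOfFinOrder z := isOfFinOrder_iff_pow_eq_one.2 ⟨p, hp.out.pos, hz⟩
  rw [← h1.mem_powers_iff_mem_zpowers, Submonoid.mem_powers_iff]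

/-- The commutator with a fixed element is a homomorphism. -/
lemma comm_mul (C : Ctx P p z) {y a b : G} (hy : y ∈ P) (ha : a ∈ P) (hb : b ∈ P) :
    y * (a * b) * y⁻¹ * (a * b)⁻¹ = (y * a * y⁻¹ * a⁻¹) * (y * b * y⁻¹ * b⁻¹) := by
  have h1 := C.comm_of_zpowers (C.comm y hy b hb) ha
  have : (y * a * y⁻¹ * a⁻¹) * (y * b * y⁻¹ * b⁻¹) =
      y * a * y⁻¹ * a⁻¹ * (a * ((y * b * y⁻¹ * b⁻¹) * a⁻¹)) := by
    rw [← mul_assoc a, h1]
    group
  rw [this]
  group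

lemma comm_pow_right (C : Ctx P p z) {y a : G} (hy : y ∈ P) (ha : a ∈ P) (n : ℕ) :
    y * a ^ n * y⁻¹ * (a ^ n)⁻¹ = (y * a * y⁻¹ * a⁻¹) ^ n := by
  induction n with
  | zero => simp
  | succ n ih =>
    rw [pow_succ, C.comm_mul hy (P.pow_mem ha n) ha, ih, pow_succ]

lemma comm_mul_left (C : Ctx P p z) {y y' a : G} (hy : y ∈ P) (hy' : y' ∈ P) (ha : a ∈ P) :
    (y * y') * a * (y * y')⁻¹ * a⁻¹ = (y * a * y⁻¹ * a⁻¹) * (y' * a * y'⁻¹ * a⁻¹) := by
  have h1 := C.comm_of_zpowers (C.comm y' hy' a ha) hy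
  have : (y * a * y⁻¹ * a⁻¹) * (y' * a * y'⁻¹ * a⁻¹) =
      y * a * y⁻¹ * a⁻¹ * ((y' * a * y'⁻¹ * a⁻¹)) := rfl
  have h2 := C.comm_of_zpowers (C.comm y' hy' a ha) ha
  have h3 : (y' * a * y'⁻¹ * a⁻¹) * y⁻¹ = y⁻¹ * (y' * a * y'⁻¹ * a⁻¹) := by
    have := C.comm_of_zpowers (C.comm y' hy' a ha) (P.inv_mem hy)
    exact this.symm
  have h4 : (y' * a * y'⁻¹ * a⁻¹) * a⁻¹ = a⁻¹ * (y' * a * y'⁻¹ * a⁻¹) := by
    have := C.comm_of_zpowers (C.comm y' hy' a ha) (P.inv_mem ha)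
    exact this.symm
  have h5 : (y' * a * y'⁻¹ * a⁻¹) * a = a * (y' * a * y'⁻¹ * a⁻¹) := h2.symm
  -- `y y' a y'⁻¹ y⁻¹ a⁻¹ = y (c a) y⁻¹ a⁻¹` with `c` central
  set c := y' * a * y'⁻¹ * a⁻¹ with hc
  have h6 : y' * a * y'⁻¹ = c * a := by rw [hc]; group
  have h7 : (y * y') * a * (y * y')⁻¹ * a⁻¹ = y * (c * a) * y⁻¹ * a⁻¹ := by
    rw [← h6]; group
  rw [h7]
  calc y * (c * a) * y⁻¹ * a⁻¹ = y * (a * c) * y⁻¹ * a⁻¹ := by rw [h5]
    _ = y * a * (c * y⁻¹) * a⁻¹ := by group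
    _ = y * a * (y⁻¹ * c) * a⁻¹ := by rw [h3]
    _ = y * a * y⁻¹ * (c * a⁻¹) := by group
    _ = y * a * y⁻¹ * (a⁻¹ * c) := by rw [h4]
    _ = _ := by group

lemma comm_pow_left (C : Ctx P p z) {y a : G} (hy : y ∈ P) (ha : a ∈ P) (n : ℕ) :
    y ^ n * a * (y ^ n)⁻¹ * a⁻¹ = (y * a * y⁻¹ * a⁻¹) ^ n := by
  induction n with
  | zero => simp
  | succ n ih =>
    rw [pow_succ, C.comm_mul_left (P.pow_mem hy n) hy ha, ih, pow_succ]

/-- `z` is a commutator `[y, u]` for every `y` outside `⟨z⟩`. -/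
lemma exists_comm_eq (C : Ctx P p z) {y : G} (hy : y ∈ P) (hy' : y ∉ zpowers z) :
    ∃ u ∈ P, y * u * y⁻¹ * u⁻¹ = z := by
  obtain ⟨b, hb, hne⟩ := C.nd y hy hy'
  obtain ⟨k, hk⟩ := (mem_zpowers_iff_pow C.z_pow).1 (C.comm y hy b hb)
  have hk0 : (k : ZMod p) ≠ 0 := by
    intro h0
    apply hne
    rw [← hk]
    rw [ZMod.natCast_eq_zero_iff] at h0
    obtain ⟨m, rfl⟩ := h0
    rw [pow_mul, C.z_pow, one_pow]
  refine ⟨b ^ ((k : ZMod p)⁻¹).val, P.pow_mem hb _, ?_⟩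
  rw [C.comm_pow_right hy hb, ← hk, ← pow_mul]
  have h2 : ((k * ((k : ZMod p)⁻¹).val : ℕ) : ZMod p) = 1 := by
    push_cast
    rw [ZMod.natCast_zmod_val]
    exact mul_inv_cancel₀ hk0
  have h3 := (pow_eq_pow_iff_cast (x := z) C.orderOf_z (m := k * ((k : ZMod p)⁻¹).val) (n := 1)).2
    (by rw [h2]; simp)
  simpa using h3

/-- Elements of the centre of `P`. -/
lemma mem_zpowers_of_central (C : Ctx P p z) {a : G} (ha : a ∈ P) (h : ∀ b ∈ P, b * a = a * b) :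
    a ∈ zpowers z := by
  by_contra hc
  obtain ⟨b, hb, hne⟩ := C.nd a ha hc
  apply hne
  rw [(h b hb).symm]
  group

/-- The normalizer of `P` normalizes `⟨z⟩`. -/
lemma conj_z_mem (C : Ctx P p z) {g : G} (hg : g ∈ normalizer (P : Set G)) :
    g * z * g⁻¹ ∈ zpowers z := by
  have hg' := Subgroup.mem_normalizer_iff.1 hg
  refine C.mem_zpowers_of_central ((hg' z).1 C.zmem) fun b hb => ?_
  have h1 : g⁻¹ * b * g ∈ P := by
    have := (hg' (g⁻¹ * b * g)).2 (by simpa [mul_assoc] using hb)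
    exact this
  have h2 := C.zcent _ h1
  have h3 : b = g * (g⁻¹ * b * g) * g⁻¹ := by group
  calc b * (g * z * g⁻¹) = g * ((g⁻¹ * b * g) * z) * g⁻¹ := by group
    _ = g * (z * (g⁻¹ * b * g)) * g⁻¹ := by rw [h2]
    _ = _ := by group

end Ctx

/-! ### The Frattini argument -/

/-- Two Sylow subgroups inside a subgroup are conjugate there. -/
lemma exists_conj_in [Finite G] (P : Sylow p G) (K : Subgroup G) (h : G)
    (hP : (P : Subgroup G) ≤ K) (hP' : ((P : Subgroup G).map (MulAut.conj h).toMonoidHom) ≤ K) :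
    ∃ k ∈ K, ∀ x ∈ (P : Subgroup G), ∃ x' ∈ (P : Subgroup G), k * x' * k⁻¹ = h * x * h⁻¹ := by
  classical
  let P₂ : Sylow p G := h • P
  have hP₂ : (P₂ : Subgroup G) = (P : Subgroup G).map (MulAut.conj h).toMonoidHom := rfl
  have hP₂K : (P₂ : Subgroup G) ≤ K := by rw [hP₂]; exact hP'
  obtain ⟨k, hk⟩ := MulAction.exists_smul_eq K (P.subtype hP) (P₂.subtype hP₂K)
  refine ⟨k, k.2, fun x hx => ?_⟩
  have h1 : h * x * h⁻¹ ∈ K := hP' ⟨x, hx, rfl⟩
  have h2 : (⟨h * x * h⁻¹, h1⟩ : K) ∈ ((P₂.subtype hP₂K : Sylow p K) : Subgroup K) := by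
    rw [Sylow.coe_subtype, Subgroup.mem_subgroupOf, hP₂]
    exact ⟨x, hx, rfl⟩
  rw [← hk, Sylow.smul_def] at h2
  obtain ⟨x₁, hx₁, hx₂⟩ := Subgroup.mem_smul_pointwise_iff_exists _ _ _ |>.1 h2
  have hx₃ : ((x₁ : K) : G) ∈ (P : Subgroup G) := by
    rw [Sylow.coe_subtype, Subgroup.mem_subgroupOf] at hx₁
    exact hx₁
  refine ⟨x₁, hx₃, ?_⟩
  have := congrArg Subtype.val hx₂
  simpa [MulAut.smul_def] using this

/-- The subgroup of elements fixing `z` and acting trivially on `⟨z, y⟩ / ⟨z⟩`. -/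
def K₁ (z y : G) (hzy : Commute z y) : Subgroup G where
  carrier := {g | g * z * g⁻¹ = z ∧ g * y * g⁻¹ * y⁻¹ ∈ zpowers z}
  one_mem' := by simp
  mul_mem' := by
    rintro g g' ⟨h1, h2⟩ ⟨h3, h4⟩
    have hfix : ∀ ζ ∈ zpowers z, g * ζ * g⁻¹ = ζ := by
      rintro ζ ⟨k, rfl⟩
      simp only
      rw [← conj_zpow, h1]
    refine ⟨?_, ?_⟩
    · have : g * g' * z * (g * g')⁻¹ = g * (g' * z * g'⁻¹) * g⁻¹ := by group
      rw [this, h3, h1]
    · have e : g * g' * y * (g * g')⁻¹ * y⁻¹ =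
          (g * (g' * y * g'⁻¹ * y⁻¹) * g⁻¹) * (g * y * g⁻¹ * y⁻¹) := by group
      rw [e, hfix _ h4]
      exact mul_mem h4 h2
  inv_mem' := by
    rintro g ⟨h1, h2⟩
    have hfix : ∀ ζ ∈ zpowers z, g⁻¹ * ζ * g = ζ := by
      intro ζ hζ
      obtain ⟨k, rfl⟩ := hζ
      have h3 : g⁻¹ * z * g = z := by
        nth_rewrite 1 [← h1]
        group
      have := conj_zpow (a := g⁻¹) (b := z) (i := k)
      rw [inv_inv] at this
      simp only
      rw [← this, h3]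
    refine ⟨?_, ?_⟩
    · rw [inv_inv]
      nth_rewrite 1 [← h1]
      group
    · rw [inv_inv]
      have e : g⁻¹ * y * g * y⁻¹ = (g⁻¹ * (g * y * g⁻¹ * y⁻¹) * g)⁻¹ := by group
      rw [e, hfix _ h2]
      exact inv_mem h2

/-- **The Frattini argument.** If `h` acts as `diag (m, n)`, `mn = 1`, then so does an element of
`N_G(P)`, modulo `⟨z⟩`. -/
theorem exists_normalizing [Finite G] (P : Sylow p G) {z y : G}
    (C : Ctx (P : Subgroup G) p z) (hy : y ∈ (P : Subgroup G)) {h : G} {m n : ℕ}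
    (hmn : (m : ZMod p) * (n : ZMod p) = 1)
    (h1 : h * z * h⁻¹ = z ^ m) (h2 : h * y * h⁻¹ = y ^ n) :
    ∃ w ∈ normalizer ((P : Subgroup G) : Set G), w * z * w⁻¹ = z ^ m ∧
      ∃ ζ ∈ zpowers z, w * y * w⁻¹ = y ^ n * ζ := by
  classical
  have hzy : Commute z y := (C.zcent y hy).symm
  have hypow : y ^ p = 1 := C.exp y hy
  have hzpow : z ^ p = 1 := C.z_pow
  have hpow : ∀ {x : G}, x ^ p = 1 → x ^ (m * n) = x := by
    intro x hx
    have h3 : ((m * n : ℕ) : ZMod p) = ((1 : ℕ) : ZMod p) := by push_cast; exact hmn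
    rw [ZMod.natCast_eq_natCast_iff] at h3
    have h5 : x ^ (m * n) = x ^ (m * n % p) := pow_eq_pow_mod _ hx
    have h6 : x ^ 1 = x ^ (1 % p) := pow_eq_pow_mod _ hx
    rw [h5, (h3 : m * n % p = 1 % p), ← h6, pow_one]
  have hinv1 : h⁻¹ * z * h = z ^ n := by
    have : h * z ^ n * h⁻¹ = z := by
      rw [conj_pow', h1, ← pow_mul, hpow hzpow]
    calc h⁻¹ * z * h = h⁻¹ * (h * z ^ n * h⁻¹) * h := by rw [this]
      _ = _ := by group
  have hinv2 : h⁻¹ * y * h = y ^ m := by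
    have : h * y ^ m * h⁻¹ = y := by
      rw [conj_pow', h2, ← pow_mul, mul_comm, hpow hypow]
    calc h⁻¹ * y * h = h⁻¹ * (h * y ^ m * h⁻¹) * h := by rw [this]
      _ = _ := by group
  set K := K₁ z y hzy with hK
  have hPK : (P : Subgroup G) ≤ K := by
    intro u hu
    refine ⟨?_, ?_⟩
    · rw [C.zcent u hu]
      group
    · exact C.comm u hu y hy
  have hconj : ∀ g ∈ K, h * g * h⁻¹ ∈ K := by
    rintro g ⟨g1, g2⟩
    have gfix : ∀ k : ℕ, g * z ^ k * g⁻¹ = z ^ k := fun k => by rw [conj_pow', g1]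
    refine ⟨?_, ?_⟩
    · have e : h * g * h⁻¹ * z * (h * g * h⁻¹)⁻¹ = h * (g * (h⁻¹ * z * h) * g⁻¹) * h⁻¹ := by group
      rw [e, hinv1, gfix, conj_pow', h1, ← pow_mul, hpow hzpow]
    · obtain ⟨k, hk⟩ := (Ctx.mem_zpowers_iff_pow hzpow).1 g2
      have e1 : g * y * g⁻¹ = z ^ k * y := by rw [hk]; group
      have e : h * g * h⁻¹ * y * (h * g * h⁻¹)⁻¹ * y⁻¹ =
          h * (g * (h⁻¹ * y * h) * g⁻¹) * h⁻¹ * y⁻¹ := by group
      rw [e, hinv2, conj_pow', e1]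
      have hc : Commute (z ^ k) y := hzy.pow_left k
      rw [hc.mul_pow]
      have e2 : h * (((z ^ k) ^ m) * y ^ m) * h⁻¹ = (h * (z ^ k) ^ m * h⁻¹) * (h * y ^ m * h⁻¹) := by
        group
      rw [e2, conj_pow', conj_pow', h1, conj_pow', h2, ← pow_mul y n m, mul_comm n m, hpow hypow,
        mul_assoc, mul_inv_cancel, mul_one]
      exact Subgroup.pow_mem _ (Subgroup.pow_mem _ (Subgroup.pow_mem _ (mem_zpowers z) _) _) _
  have hPK' : ((P : Subgroup G).map (MulAut.conj h).toMonoidHom) ≤ K := by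
    rintro _ ⟨u, hu, rfl⟩
    exact hconj u (hPK hu)
  obtain ⟨k, hkK, hk⟩ := exists_conj_in P K h hPK hPK'
  set w := k⁻¹ * h with hw
  have hwP : ∀ x ∈ (P : Subgroup G), w * x * w⁻¹ ∈ (P : Subgroup G) := by
    intro x hx
    obtain ⟨x', hx', e⟩ := hk x hx
    have : w * x * w⁻¹ = x' := by
      have e2 : w * x * w⁻¹ = k⁻¹ * (h * x * h⁻¹) * k := by rw [hw]; group
      rw [e2, ← e]
      group
    rw [this]
    exact hx'
  have hwN : w ∈ normalizer ((P : Subgroup G) : Set G) := by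
    rw [Subgroup.mem_normalizer_iff]
    intro x
    refine ⟨hwP x, fun hx => ?_⟩
    have hle : (P : Subgroup G).map (MulAut.conj w).toMonoidHom ≤ (P : Subgroup G) := by
      rintro _ ⟨u, hu, rfl⟩
      exact hwP u hu
    have hcard : Nat.card (P : Subgroup G) ≤ Nat.card ((P : Subgroup G).map (MulAut.conj w).toMonoidHom) := by
      rw [Subgroup.card_map_of_injective (MulAut.conj w).injective]
    have heq := Subgroup.eq_of_le_of_card_ge hle hcard
    rw [← heq] at hx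
    obtain ⟨u, hu, e⟩ := hx
    have : u = x := by
      have e' : w * u * w⁻¹ = w * x * w⁻¹ := e
      simpa using e'
    rwa [← this]
  have hk1 : k⁻¹ * z * k = z := by
    have := (K.inv_mem hkK).1
    simpa using this
  have hk2 : k⁻¹ * y * k * y⁻¹ ∈ zpowers z := by
    have := (K.inv_mem hkK).2
    simpa using this
  refine ⟨w, hwN, ?_, ?_⟩
  · have e : w * z * w⁻¹ = k⁻¹ * (h * z * h⁻¹) * k := by rw [hw]; group
    rw [e, h1]
    have := conj_pow (a := k⁻¹) (b := z) (i := m)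
    rw [inv_inv] at this
    rw [← this, hk1]
  · refine ⟨(k⁻¹ * y * k * y⁻¹) ^ n, Subgroup.pow_mem _ hk2 _, ?_⟩
    have e : w * y * w⁻¹ = k⁻¹ * (h * y * h⁻¹) * k := by rw [hw]; group
    rw [e, h2]
    have h3 := conj_pow (a := k⁻¹) (b := y) (i := n)
    rw [inv_inv] at h3
    rw [← h3]
    have hc : Commute (k⁻¹ * y * k * y⁻¹) y := by
      obtain ⟨l, hl⟩ := hk2
      rw [← hl]
      exact hzy.zpow_left l
    have h4 : k⁻¹ * y * k = (k⁻¹ * y * k * y⁻¹) * y := by group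
    rw [h4, hc.mul_pow, ← h4, (hc.pow_pow n n).eq]

end Cfsg.Agent.Lib.ExtraCube.Basic
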