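import Cfsg.Agent.Lib.ExtraCube.Main

/-!
# The two final statements on extraspecial Sylow subgroups of order `p³`
-/

set_option autoImplicit false
set_option linter.unusedSectionVars false
set_option linter.style.haveILetI false
set_option linter.unusedVariables false

open scoped MatrixGroups
open Subgroup Matrix Module

namespace Cfsg.Agent.Lib.ExtraCube.Final

open Cfsg.Agent.Lib.Classical.SL2.Moebius Cfsg.Agent.Lib.ExtraCube.Basic
  Cfsg.Agent.Lib.ExtraCube.Main

universe v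

variable {G : Type v} [Group G] [Finite G] {p : ℕ} [hp : Fact p.Prime]

/-- The context from the hypotheses on `P`. -/
theorem exists_ctx (P : Sylow p G) (hE : Cfsg.IsExtraspecial p ↥P) (hcard : Nat.card P = p ^ 3)
    (hexp : Monoid.exponent ↥P = p) : ∃ z : G, Ctx (P : Subgroup G) p z := by
  have hL := Cfsg.Agent.Lib.PGroups.Special.extraLike_of_isExtraspecial hE
  haveI : Nontrivial (center ↥P) := by
    apply Finite.one_lt_card_iff_nontrivial.1
    rw [hL.card_center]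
    exact hp.out.one_lt
  obtain ⟨⟨z₀, hz₀⟩, hne⟩ := exists_ne (1 : center ↥P)
  have hz₀1 : z₀ ≠ 1 := fun h => hne (Subtype.ext h)
  have hzp := hL.zpowers_eq hz₀ hz₀1
  have hcoe : ∀ a : ↥P, a ∈ center ↥P → (a : G) ∈ zpowers (z₀ : G) := by
    intro a ha
    rw [← hzp] at ha
    obtain ⟨k, rfl⟩ := ha
    exact ⟨k, by simp⟩
  have hcoe' : ∀ a : ↥P, (a : G) ∈ zpowers (z₀ : G) → a ∈ center ↥P := by
    intro a ha
    rw [← hzp]
    obtain ⟨k, hk⟩ := ha
    refine ⟨k, Subtype.ext ?_⟩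
    simpa using hk
  refine ⟨z₀, {
    zmem := z₀.2
    zne := fun h => hz₀1 (Subtype.ext h)
    zcent := fun u hu => ?_
    comm := fun a ha b hb => ?_
    exp := fun a ha => ?_
    card := hcard
    nd := fun a ha hna => ?_ }⟩
  · exact congrArg Subtype.val ((Subgroup.mem_center_iff.1 hz₀) ⟨u, hu⟩)
  · exact hcoe _ (hL.comm_mem ⟨a, ha⟩ ⟨b, hb⟩)
  · have := Monoid.pow_exponent_eq_one (⟨a, ha⟩ : ↥P)
    rw [hexp] at this
    exact congrArg Subtype.val this
  · have h1 : (⟨a, ha⟩ : ↥P) ∉ center ↥P := fun h => hna (hcoe _ h)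
    rw [Subgroup.mem_center_iff] at h1
    push Not at h1
    obtain ⟨b, hb⟩ := h1
    refine ⟨b, b.2, fun h => hb ?_⟩
    apply Subtype.ext
    have h3 : a * (b : G) * a⁻¹ = b := by
      rw [mul_inv_eq_one] at h
      exact h
    rw [mul_inv_eq_iff_eq_mul] at h3
    exact h3.symm

/-- A `p`-element of `K` is conjugate in `K` into a Sylow subgroup of `G` inside `K`. -/
theorem exists_conj_mem (K : Subgroup G) (Q : Sylow p G) (hQ : (Q : Subgroup G) ≤ K) {t : G} (ht : t ∈ K)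
    (htp : t ^ p = 1) : ∃ c ∈ K, c * t * c⁻¹ ∈ (Q : Subgroup G) := by
  classical
  let t' : K := ⟨t, ht⟩
  have h1 : IsPGroup p (zpowers t') := by
    apply IsPGroup.of_card (n := if t = 1 then 0 else 1)
    rw [Nat.card_zpowers]
    have ht' : t' ^ p = 1 := Subtype.ext htp
    by_cases h : t = 1
    · rw [if_pos h, pow_zero, orderOf_eq_one_iff]
      exact Subtype.ext h
    · rw [if_neg h, pow_one]
      exact orderOf_eq_prime ht' (fun h2 => h (congrArg Subtype.val h2))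
  obtain ⟨R, hR⟩ := h1.exists_le_sylow
  obtain ⟨c, hc⟩ := MulAction.exists_smul_eq K R (Q.subtype hQ)
  have h2 : t' ∈ (R : Subgroup K) := hR (mem_zpowers t')
  have h3 : c * t' * c⁻¹ ∈ ((Q.subtype hQ : Sylow p K) : Subgroup K) := by
    rw [← hc, Sylow.smul_def]
    exact ⟨t', h2, rfl⟩
  rw [Sylow.coe_subtype, Subgroup.mem_subgroupOf] at h3
  exact ⟨c, c.2, by simpa [t'] using h3⟩

section S3055

/-- The line through `y` is radical when `y` is conjugate to `z`. -/
theorem isRad_of_conj (P : Sylow p G) {z : G} (C : Ctx (P : Subgroup G) p z) {y : G}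
    (hy : y ∈ (P : Subgroup G)) (hy' : y ∉ zpowers z) {x : G} (hx : x * z * x⁻¹ = y) :
    IsRad z y p := by
  have hzy : Commute z y := (C.zcent y hy).symm
  have hzp := C.z_pow
  have hyp : y ^ p = 1 := C.exp y hy
  obtain ⟨u, hu, hyu⟩ := C.exists_comm_eq hy hy'
  have hneg : z⁻¹ = z ^ (-1 : ZMod p).val := by
    have h1 : z ^ (-1 + 1 : ZMod p).val = z ^ (-1 : ZMod p).val * z := by
      rw [pow_val_add hzp, pow_val_one]
    rw [neg_add_cancel, pow_val_zero] at h1
    exact inv_eq_of_mul_eq_one_left h1.symm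
  have hE12 : E12 (-1 : ZMod p) ∈ radSub (p := p) z y := by
    refine ⟨u, acts_E12 hzy hzp ?_ ?_⟩
    · rw [C.zcent u hu]
      group
    · rw [← hneg]
      have h1 : u * y = z⁻¹ * y * u := by
        rw [← hyu]
        group
      rw [h1]
      group
  -- the second Sylow subgroup
  let Cen : Subgroup G := centralizer ({y} : Set G)
  let Q : Sylow p G := x • P
  have hQ : (Q : Subgroup G) = (P : Subgroup G).map (MulAut.conj x).toMonoidHom := rfl
  have hQCen : (Q : Subgroup G) ≤ Cen := by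
    rw [hQ]
    rintro _ ⟨v, hv, rfl⟩
    rw [Subgroup.mem_centralizer_singleton_iff]
    simp only [MulEquiv.coe_toMonoidHom, MulAut.conj_apply]
    rw [← hx]
    have h1 := C.zcent v hv
    calc x * v * x⁻¹ * (x * z * x⁻¹) = x * (v * z) * x⁻¹ := by group
      _ = x * (z * v) * x⁻¹ := by rw [h1]
      _ = _ := by group
  have hzCen : z ∈ Cen := by
    rw [Subgroup.mem_centralizer_singleton_iff]
    exact hzy.eq
  obtain ⟨c, hc, hcz⟩ := exists_conj_mem Cen Q hQCen hzCen hzp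
  rw [hQ] at hcz
  obtain ⟨b, hb, hbe⟩ := hcz
  simp only [MulEquiv.coe_toMonoidHom, MulAut.conj_apply] at hbe
  set x₁ := c⁻¹ * x with hx₁
  have hb1 : x₁⁻¹ * z * x₁ = b := by
    have : b = x⁻¹ * (x * b * x⁻¹) * x := by group
    rw [this, hbe, hx₁]
    group
  have hcy : c * y = y * c := (Subgroup.mem_centralizer_singleton_iff.1 hc)
  have hx₁z : x₁ * z * x₁⁻¹ = y := by
    have : x₁ * z * x₁⁻¹ = c⁻¹ * (x * z * x⁻¹) * c := by rw [hx₁]; group
    rw [this, hx]
    rw [mul_assoc, ← hcy]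
    group
  have hb' : b ∉ zpowers z := by
    intro hbz
    obtain ⟨k, hk⟩ := (Ctx.mem_zpowers_iff_pow hzp).1 hbz
    have h1 : z = y ^ k := by
      have : z = x₁ * b * x₁⁻¹ := by rw [← hb1]; group
      rw [this, ← hk, conj_pow', hx₁z]
    have hk0 : (k : ZMod p) ≠ 0 := by
      intro h0
      rw [ZMod.natCast_eq_zero_iff] at h0
      obtain ⟨m, rfl⟩ := h0
      rw [pow_mul, hyp, one_pow] at h1
      exact C.zne h1
    apply hy'
    have h2 : y ^ ((k : ZMod p) * (k : ZMod p)⁻¹).val = (y ^ (k : ZMod p).val) ^ ((k : ZMod p)⁻¹).val :=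
      pow_val_mul hyp _ _
    rw [mul_inv_cancel₀ hk0, pow_val_one, pow_val_natCast hyp, ← h1] at h2
    rw [h2]
    exact Subgroup.pow_mem _ (mem_zpowers z) _
  obtain ⟨u₂, hu₂, hne⟩ := C.nd b hb hb'
  obtain ⟨k, hk⟩ := (Ctx.mem_zpowers_iff_pow hzp).1 (C.comm b hb u₂ hu₂)
  have hk0 : (k : ZMod p) ≠ 0 := by
    intro h0
    rw [ZMod.natCast_eq_zero_iff] at h0
    obtain ⟨m, rfl⟩ := h0
    rw [pow_mul, hzp, one_pow] at hk
    exact hne hk.symm
  set u₃ := x₁ * u₂ * x₁⁻¹ with hu₃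
  have hy3 : u₃ * y * u₃⁻¹ = y := by
    have e : u₃ * y * u₃⁻¹ = x₁ * (u₂ * (x₁⁻¹ * y * x₁) * u₂⁻¹) * x₁⁻¹ := by rw [hu₃]; group
    have e2 : x₁⁻¹ * y * x₁ = z := by rw [← hx₁z]; group
    rw [e, e2, C.zcent u₂ hu₂]
    have : z * u₂ * u₂⁻¹ = z := by group
    rw [this, hx₁z]
  have hz3 : z * u₃ * z⁻¹ * u₃⁻¹ = y ^ k := by
    have e : z * u₃ * z⁻¹ * u₃⁻¹ = x₁ * (b * u₂ * b⁻¹ * u₂⁻¹) * x₁⁻¹ := by
      rw [hu₃, ← hb1]
      group
    rw [e, ← hk, conj_pow', hx₁z]
  set s : ZMod p := -(k : ZMod p) with hs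
  have hs0 : s ≠ 0 := neg_ne_zero.2 hk0
  have hys : y ^ s.val * y ^ k = 1 := by
    rw [← pow_val_natCast hyp k, ← pow_val_add hyp, hs, neg_add_cancel, pow_val_zero]
  have hE21 : E21 s ∈ radSub (p := p) z y := by
    refine ⟨u₃, acts_E21 hzy hyp ?_ hy3⟩
    have h1 : u₃ * z * u₃⁻¹ = (y ^ k)⁻¹ * z := by
      rw [← hz3]
      group
    rw [h1, (inv_eq_of_mul_eq_one_left hys).symm]
    exact ((hzy.pow_right k).inv_right.eq).symm
  intro a ha
  obtain ⟨h, hh⟩ := DD_mem (neg_ne_zero.2 one_ne_zero) hs0 hE12 hE21 a ha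
  exact ⟨h, acts_DD hh⟩

/-- **All non-identity elements of `P` conjugate ⟹ `p ≤ 7`.** -/
theorem main_conj (hp2 : p ≠ 2) (P : Sylow p G) (hE : Cfsg.IsExtraspecial p ↥P)
    (hcard : Nat.card P = p ^ 3) (hexp : Monoid.exponent ↥P = p)
    (hconj : ∀ x y : ↥P, x ≠ 1 → y ≠ 1 → ∃ g : G, g * (x : G) * g⁻¹ = (y : G)) : p ≤ 7 := by
  by_contra hgt
  obtain ⟨z, C⟩ := exists_ctx P hE hcard hexp
  have hprime := hp.out
  have hp11 : 11 ≤ p := by
    by_contra h
    have : p = 8 ∨ p = 9 ∨ p = 10 := by omega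
    rcases this with rfl | rfl | rfl <;> revert hprime <;> norm_num
  have hrad : ∀ y ∈ (P : Subgroup G), y ∉ zpowers z → IsRad z y p := by
    intro y hy hy'
    have hy1 : (⟨y, hy⟩ : ↥P) ≠ 1 := by
      intro h
      apply hy'
      have : y = 1 := congrArg Subtype.val h
      rw [this]
      exact one_mem _
    have hz1 : (⟨z, C.zmem⟩ : ↥P) ≠ 1 := fun h => C.zne (congrArg Subtype.val h)
    obtain ⟨g, hg⟩ := hconj _ _ hz1 hy1
    exact isRad_of_conj P C hy hy' hg
  by_cases h13 : p = 13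
  · exact Main.all_lines_thirteen P C h13 hrad
  have hcases : 17 ≤ p ∨ p = 11 := by
    by_contra h
    push Not at h
    have : p = 12 ∨ p = 14 ∨ p = 15 ∨ p = 16 := by omega
    rcases this with rfl | rfl | rfl | rfl <;> revert hprime <;> norm_num
  -- three lines
  have hex : ∃ y ∈ (P : Subgroup G), y ∉ zpowers z := by
    by_contra h
    push Not at h
    have hle : (P : Subgroup G) ≤ zpowers z := h
    have h1 := Subgroup.card_le_of_le hle
    rw [hcard, Nat.card_zpowers, C.orderOf_z] at h1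
    have h2 : p ^ 1 < p ^ 3 := Nat.pow_lt_pow_right hprime.one_lt (by norm_num)
    rw [pow_one] at h2
    omega
  obtain ⟨y, hy, hy'⟩ := hex
  obtain ⟨u, hu, hyu⟩ := C.exists_comm_eq hy hy'
  have hcommz : ∀ {a b : G}, a ∈ (P : Subgroup G) → ∀ n : ℕ, ∀ ζ ∈ zpowers z, b = a ^ n * ζ → Commute a b := by
    rintro a b ha n ζ hζ rfl
    have h1 : Commute a ζ := C.comm_of_zpowers hζ ha
    exact ((Commute.refl a).pow_right n).mul_right h1
  have h12 : ∀ n : ℕ, ∀ ζ ∈ zpowers z, u ≠ y ^ n * ζ := by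
    intro n ζ hζ he
    have h1 := (hcommz hy n ζ hζ he).eq
    apply C.zne
    rw [← hyu, h1]
    group
  have h13' : ∀ n : ℕ, ∀ ζ ∈ zpowers z, y * u ≠ y ^ n * ζ := by
    intro n ζ hζ he
    have h1 := (hcommz hy n ζ hζ he).eq
    apply C.zne
    rw [← hyu]
    have h2 : y * u = u * y := by
      have h3 : y * (y * u) = y * (u * y) := by
        rw [h1, mul_assoc]
      exact mul_left_cancel h3
    rw [h2]
    group
  have h23 : ∀ n : ℕ, ∀ ζ ∈ zpowers z, y * u ≠ u ^ n * ζ := by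
    intro n ζ hζ he
    have h1 := (hcommz hu n ζ hζ he).eq
    apply C.zne
    rw [← hyu]
    have h2 : u * y = y * u := by
      have h3 : (u * y) * u = (y * u) * u := by
        rw [mul_assoc, h1, mul_assoc]
      exact mul_right_cancel h3
    rw [← h2]
    group
  have hu' : u ∉ zpowers z := by
    intro h
    apply C.zne
    rw [← hyu]
    have := C.comm_of_zpowers h hy
    rw [this]
    group
  have hyu' : y * u ∉ zpowers z := by
    intro h
    apply C.zne
    rw [← hyu]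
    have h1 := C.comm_of_zpowers h hy
    have h2 : y * u = u * y := by
      have h3 : y * (y * u) = y * (u * y) := by
        rw [h1, mul_assoc]
      exact mul_left_cancel h3
    rw [h2]
    group
  exact Main.three_lines P C hcases hy hu (mul_mem hy hu) hy' hu' hyu' h12 h13' h23
    (hrad y hy hy') (hrad u hu hu') (hrad _ (mul_mem hy hu) hyu')

end S3055

section S3054

lemma E12_ne_one {t : ZMod p} (ht : t ≠ 0) : E12 t ≠ 1 := by
  intro h
  have h1 := congrArg (fun M : GL (Fin 2) (ZMod p) => (M : Matrix (Fin 2) (Fin 2) (ZMod p)) 0 1) h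
  simp [E12] at h1
  exact ht h1

lemma E21_ne_one {t : ZMod p} (ht : t ≠ 0) : E21 t ≠ 1 := by
  intro h
  have h1 := congrArg (fun M : GL (Fin 2) (ZMod p) => (M : Matrix (Fin 2) (Fin 2) (ZMod p)) 1 0) h
  simp [E21] at h1
  exact ht h1

lemma orderOf_E12 {t : ZMod p} (ht : t ≠ 0) : orderOf (E12 t) = p := by
  refine orderOf_eq_prime ?_ (E12_ne_one ht)
  rw [E12_pow, ZMod.natCast_self, zero_mul, E12_zero]

lemma orderOf_E21 {t : ZMod p} (ht : t ≠ 0) : orderOf (E21 t) = p := by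
  refine orderOf_eq_prime ?_ (E21_ne_one ht)
  rw [E21_pow, ZMod.natCast_self, zero_mul, E21_zero]

/-- Matrices act on a group with coordinates. -/
lemma exists_theta {A : Type*} [Group A] (e : (Fin 2 → ZMod p) ≃ A)
    (he : ∀ c d, e (c + d) = e c * e d) :
    ∃ Θ : GL (Fin 2) (ZMod p) →* MulAut A,
      (∀ (M : GL (Fin 2) (ZMod p)) c, Θ M (e c) =
        e ((M : Matrix (Fin 2) (Fin 2) (ZMod p)).mulVec c)) ∧ Function.Injective Θ := by
  have hsymm : ∀ x y : A, e.symm (x * y) = e.symm x + e.symm y := by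
    intro x y
    apply e.injective
    rw [he]
    simp
  let Θ₀ : GL (Fin 2) (ZMod p) → MulAut A := fun M =>
    { toFun := fun x => e ((M : Matrix (Fin 2) (Fin 2) (ZMod p)).mulVec (e.symm x))
      invFun := fun x =>
        e (((M⁻¹ : GL (Fin 2) (ZMod p)) : Matrix (Fin 2) (Fin 2) (ZMod p)).mulVec (e.symm x))
      left_inv := fun x => by
        simp only [Equiv.symm_apply_apply, Matrix.mulVec_mulVec]
        rw [← Matrix.GeneralLinearGroup.coe_mul, inv_mul_cancel]
        change e ((1 : Matrix (Fin 2) (Fin 2) (ZMod p)).mulVec _) = x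
        rw [Matrix.one_mulVec, Equiv.apply_symm_apply]
      right_inv := fun x => by
        simp only [Equiv.symm_apply_apply, Matrix.mulVec_mulVec]
        rw [← Matrix.GeneralLinearGroup.coe_mul, mul_inv_cancel]
        change e ((1 : Matrix (Fin 2) (Fin 2) (ZMod p)).mulVec _) = x
        rw [Matrix.one_mulVec, Equiv.apply_symm_apply]
      map_mul' := fun x y => by
        rw [hsymm, Matrix.mulVec_add, he] }
  have hΘ₀ : ∀ M c, Θ₀ M (e c) = e ((M : Matrix (Fin 2) (Fin 2) (ZMod p)).mulVec c) := by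
    intro M c
    change e ((M : Matrix (Fin 2) (Fin 2) (ZMod p)).mulVec (e.symm (e c))) = _
    rw [Equiv.symm_apply_apply]
  let Θ : GL (Fin 2) (ZMod p) →* MulAut A :=
    { toFun := Θ₀
      map_one' := by
        ext x
        obtain ⟨c, rfl⟩ := e.surjective x
        rw [hΘ₀]
        change e ((1 : Matrix (Fin 2) (Fin 2) (ZMod p)).mulVec c) = e c
        simp
      map_mul' := fun M N => by
        ext x
        obtain ⟨c, rfl⟩ := e.surjective x
        rw [hΘ₀, MulAut.mul_apply, hΘ₀, hΘ₀, Matrix.mulVec_mulVec]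
        rfl }
  refine ⟨Θ, hΘ₀, ?_⟩
  intro M N h
  apply Units.ext
  apply Matrix.mulVec_injective
  ext1 c
  have h1 : Θ M (e c) = Θ N (e c) := by rw [h]
  have h2 : Θ₀ M (e c) = Θ₀ N (e c) := h1
  rw [hΘ₀, hΘ₀] at h2
  exact e.injective h2

variable (P : Sylow p G) {z : G} (C : Ctx (P : Subgroup G) p z) (A : Subgroup G)
  (hAP : A ≤ (P : Subgroup G)) (hAcard : Nat.card A = p ^ 2)

include C hAP hAcard in
lemma exists_y : ∃ y ∈ A, y ∉ zpowers z := by
  by_contra h
  push Not at h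
  have hle : A ≤ zpowers z := h
  have h1 := Subgroup.card_le_of_le hle
  rw [hAcard, Nat.card_zpowers, C.orderOf_z] at h1
  have h2 : p ^ 1 < p ^ 2 := Nat.pow_lt_pow_right hp.out.one_lt (by norm_num)
  rw [pow_one] at h2
  omega

include C hAP hAcard in
lemma z_mem : z ∈ A := by
  obtain ⟨y, hy, hy'⟩ := exists_y P C A hAP hAcard
  obtain ⟨u, hu, hyu⟩ := C.exists_comm_eq (hAP hy) hy'
  let A' : Subgroup ↥(P : Subgroup G) := A.subgroupOf (P : Subgroup G)
  have hcard' : Nat.card A' = p ^ 2 := by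
    rw [← hAcard]
    exact Nat.card_congr (Subgroup.subgroupOfEquivOfLe hAP).toEquiv
  have hidx : A'.index = p := by
    have h1 := Subgroup.card_mul_index A'
    rw [hcard', C.card] at h1
    have h2 : p ^ 2 * A'.index = p ^ 2 * p := by rw [h1]; ring
    exact Nat.eq_of_mul_eq_mul_left (by have := hp.out.pos; positivity) h2
  have hmin : A'.index = (Nat.card ↥(P : Subgroup G)).minFac := by
    rw [hidx, C.card, Nat.Prime.pow_minFac hp.out (by norm_num)]
  haveI hn : A'.Normal := Subgroup.normal_of_index_eq_minFac_card hmin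
  have hqcard : Nat.card (↥(P : Subgroup G) ⧸ A') = p := by
    rw [← Subgroup.index_eq_card, hidx]
  haveI : IsCyclic (↥(P : Subgroup G) ⧸ A') := isCyclic_of_prime_card hqcard
  have hcomm : ∀ a b : ↥(P : Subgroup G) ⧸ A', a * b = b * a := fun a b => by
    obtain ⟨g, hg⟩ := IsCyclic.exists_generator (α := ↥(P : Subgroup G) ⧸ A')
    obtain ⟨i, rfl⟩ := hg a
    obtain ⟨j, rfl⟩ := hg b
    simp only
    rw [← _root_.zpow_add, ← _root_.zpow_add, add_comm]
  have h3 : (((⟨y, hAP hy⟩ * ⟨u, hu⟩ * (⟨y, hAP hy⟩ : ↥(P : Subgroup G))⁻¹ * (⟨u, hu⟩ : ↥(P : Subgroup G))⁻¹ :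
      ↥(P : Subgroup G))) : ↥(P : Subgroup G) ⧸ A') = 1 := by
    rw [QuotientGroup.mk_mul, QuotientGroup.mk_mul, QuotientGroup.mk_mul, QuotientGroup.mk_inv,
      QuotientGroup.mk_inv, hcomm ((⟨y, hAP hy⟩ : ↥(P : Subgroup G)) : ↥(P : Subgroup G) ⧸ A')]
    group
  rw [QuotientGroup.eq_one_iff, Subgroup.mem_subgroupOf] at h3
  simpa [hyu] using h3

include C hAP hAcard in
/-- Coordinates on `A`. -/
lemma exists_coords {y : G} (hy : y ∈ A) (hy' : y ∉ zpowers z) (hz : z ∈ A) :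
    ∃ e : (Fin 2 → ZMod p) ≃ ↥A, (∀ c, (e c : G) = j z y c) ∧ ∀ c d, e (c + d) = e c * e d := by
  have hzy : Commute z y := (C.zcent y (hAP hy)).symm
  have hzp := C.z_pow
  have hyp : y ^ p = 1 := C.exp y (hAP hy)
  let jj : (Fin 2 → ZMod p) → ↥A := fun c =>
    ⟨j z y c, mul_mem (pow_mem hz _) (pow_mem hy _)⟩
  have hadd : ∀ c d : Fin 2 → ZMod p, jj (c + d) = jj c * jj d :=
    fun c d => Subtype.ext (j_add hzy hzp hyp c d)
  have hker : ∀ c : Fin 2 → ZMod p, j z y c = 1 → c = 0 := by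
    intro c hc
    simp only [j] at hc
    have h1 : c 1 = 0 := by
      by_contra h0
      apply hy'
      have h2 : y ^ (c 1).val = (z ^ (c 0).val)⁻¹ := eq_inv_of_mul_eq_one_right hc
      have h3 : y ^ ((c 1) * (c 1)⁻¹).val = (y ^ (c 1).val) ^ ((c 1)⁻¹).val := pow_val_mul hyp _ _
      rw [mul_inv_cancel₀ h0, pow_val_one, h2] at h3
      rw [h3]
      exact Subgroup.pow_mem _ (Subgroup.inv_mem _ (Subgroup.pow_mem _ (mem_zpowers z) _)) _
    rw [h1, pow_val_zero, mul_one] at hc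
    have h2 : orderOf z ∣ (c 0).val := orderOf_dvd_of_pow_eq_one hc
    rw [C.orderOf_z] at h2
    have h3 := Nat.eq_zero_of_dvd_of_lt h2 (ZMod.val_lt (c 0))
    have h4 := (ZMod.val_eq_zero (c 0)).1 h3
    ext i
    fin_cases i
    · exact h4
    · exact h1
  have hinj : Function.Injective jj := by
    intro c d hcd
    have h1 : jj (c - d) * jj d = jj d := by
      rw [← hadd, sub_add_cancel]
      exact hcd
    have h2 : jj (c - d) = 1 := by simpa using h1
    have h3 : c - d = 0 := hker _ (congrArg Subtype.val h2)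
    exact sub_eq_zero.1 h3
  have hbij : Function.Bijective jj := by
    refine hinj.bijective_of_nat_card_le ?_
    rw [hAcard]
    simp
  exact ⟨Equiv.ofBijective jj hbij, fun c => rfl, hadd⟩

include C hAP hAcard in
/-- The line through `y ∈ A` is radical if `G` induces the transvections of `A`. -/
theorem isRad_of_hSL {y : G} (hy : y ∈ A) (hy' : y ∉ zpowers z)
    (hSL : ∀ φ : MulAut ↥A, orderOf φ = p → ∃ g : G, ∀ a : ↥A, (φ a : G) = g * (a : G) * g⁻¹) :
    IsRad z y p := by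
  have hz := z_mem P C A hAP hAcard
  obtain ⟨e, he1, he2⟩ := exists_coords P C A hAP hAcard hy hy' hz
  obtain ⟨Θ, hΘ1, hΘ2⟩ := exists_theta e he2
  have hmem : ∀ M : GL (Fin 2) (ZMod p), orderOf M = p → M ∈ radSub (p := p) z y := by
    intro M hM
    have h1 : orderOf (Θ M) = p := by
      rw [orderOf_injective Θ hΘ2, hM]
    obtain ⟨g, hg⟩ := hSL _ h1
    refine ⟨g, fun c => ?_⟩
    have h2 := hg (e c)
    rw [hΘ1, he1, he1] at h2
    exact h2.symm
  have h1 : E12 (1 : ZMod p) ∈ radSub (p := p) z y := hmem _ (orderOf_E12 one_ne_zero)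
  have h2 : E21 (1 : ZMod p) ∈ radSub (p := p) z y := hmem _ (orderOf_E21 one_ne_zero)
  intro a ha
  obtain ⟨h, hh⟩ := DD_mem one_ne_zero one_ne_zero h1 h2 a ha
  exact ⟨h, acts_DD hh⟩

include C in
/-- Two subgroups of order `p²` sharing an element outside the centre coincide. -/
lemma eq_of_mem {A₁ A₂ : Subgroup G} (h1 : A₁ ≤ (P : Subgroup G)) (h2 : A₂ ≤ (P : Subgroup G))
    (c1 : Nat.card A₁ = p ^ 2) (c2 : Nat.card A₂ = p ^ 2) {y : G} (hy : y ∈ A₂) (hy' : y ∉ zpowers z)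
    (hy₁ : y ∈ A₁) : A₂ = A₁ := by
  have hz1 := z_mem P C A₁ h1 c1
  have hz2 := z_mem P C A₂ h2 c2
  obtain ⟨e, he1, he2⟩ := exists_coords P C A₂ h2 c2 hy hy' hz2
  have hle : A₂ ≤ A₁ := by
    intro a ha
    have h3 : ((e (e.symm ⟨a, ha⟩)) : G) = a := by simp
    rw [← h3, he1]
    exact mul_mem (pow_mem hz1 _) (pow_mem hy₁ _)
  exact Subgroup.eq_of_le_of_card_ge hle (by rw [c1, c2])

/-- **Three subgroups of order `p²` with transvections ⟹ `p ≤ 13`.** -/
theorem main_three (hp2 : p ≠ 2) (hE : Cfsg.IsExtraspecial p ↥P)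
    (hcard : Nat.card P = p ^ 3) (hexp : Monoid.exponent ↥P = p)
    (A : Fin 3 → Subgroup G) (hA : Function.Injective A) (hAP : ∀ i, A i ≤ (P : Subgroup G))
    (hAcard : ∀ i, Nat.card ↥(A i) = p ^ 2)
    (hSL : ∀ i, ∀ φ : MulAut ↥(A i), orderOf φ = p → ∃ g : G, ∀ a : ↥(A i), (φ a : G) = g * (a : G) * g⁻¹) :
    p ≤ 13 := by
  by_contra hgt
  obtain ⟨z, C⟩ := exists_ctx P hE hcard hexp
  have hprime := hp.out
  have hcases : 17 ≤ p ∨ p = 11 := by
    left
    by_contra h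
    have : p = 14 ∨ p = 15 ∨ p = 16 := by omega
    rcases this with rfl | rfl | rfl <;> revert hprime <;> norm_num
  have hex : ∀ i, ∃ y ∈ A i, y ∉ zpowers z := fun i => exists_y P C (A i) (hAP i) (hAcard i)
  choose y hy hy' using hex
  have hrad : ∀ i, IsRad z (y i) p := fun i =>
    isRad_of_hSL P C (A i) (hAP i) (hAcard i) (hy i) (hy' i) (hSL i)
  have hind : ∀ i k, i ≠ k → ∀ n : ℕ, ∀ ζ ∈ zpowers z, y k ≠ y i ^ n * ζ := by
    intro i k hik n ζ hζ he
    have hz := z_mem P C (A i) (hAP i) (hAcard i)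
    have h1 : y k ∈ A i := by
      rw [he]
      exact mul_mem (pow_mem (hy i) _) ((Subgroup.zpowers_le.2 hz) hζ)
    have h2 := eq_of_mem P C (hAP i) (hAP k) (hAcard i) (hAcard k) (hy k) (hy' k) h1
    exact hik (hA h2).symm
  exact Main.three_lines P C hcases (hAP 0 (hy 0)) (hAP 1 (hy 1)) (hAP 2 (hy 2)) (hy' 0) (hy' 1) (hy' 2)
    (hind 0 1 (by decide)) (hind 0 2 (by decide)) (hind 1 2 (by decide)) (hrad 0) (hrad 1) (hrad 2)

end S3054

end Cfsg.Agent.Lib.ExtraCube.Final
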