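import Cfsg.Agent.Lib.Classical.SL2.Moebius

/-!
# Coprime subgroups of `PGL₂`: few points carry elements of large order

From the classification of finite groups with a `KleinAction`: in a group of order prime to `p` at
most two points are fixed by elements of order at least `6`, and at most twelve points are fixed by
elements of order divisible by `4`.
-/

set_option autoImplicit false
set_option linter.unusedSectionVars false
set_option linter.style.haveILetI false

namespace Cfsg.Agent.Lib.ExtraCube.KleinBound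

open Cfsg.Agent.Lib.Classical.SL2.Klein MulAction

variable {H Ω E : Type*} [Group H] [Finite H] [MulAction H Ω] [Field E] {p : ℕ} [hp : Fact p.Prime]
  [CharP E p]

theorem unip_eq_bot (K : KleinAction H Ω E p) (hcop : ¬ p ∣ Nat.card H) (ω : Ω) : K.unip ω = ⊥ := by
  rw [Subgroup.eq_bot_iff_forall]
  intro g hg
  by_contra h1
  have h2 : g ^ p = 1 := K.pow_p g ω hg.1 hg.2
  have h3 : orderOf g = p := orderOf_eq_prime h2 h1
  exact hcop (h3 ▸ orderOf_dvd_natCard g)

theorem perm4_order : ∀ g : Equiv.Perm (Fin 4), g = 1 ∨ g ^ 2 = 1 ∨ g ^ 3 = 1 ∨ g ^ 4 = 1 := by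
  decide +kernel

theorem alt5_order' : ∀ g : Equiv.Perm (Fin 5), Equiv.Perm.sign g = 1 →
    g = 1 ∨ g ^ 2 = 1 ∨ g ^ 3 = 1 ∨ g ^ 5 = 1 := by decide +kernel

theorem alt5_order (g : Equiv.Perm (Fin 5)) (hg : g ∈ alternatingGroup (Fin 5)) :
    g = 1 ∨ g ^ 2 = 1 ∨ g ^ 3 = 1 ∨ g ^ 5 = 1 := alt5_order' g (Equiv.Perm.mem_alternatingGroup.mp hg)

theorem perm4_count :
    (Finset.univ.filter (fun g : Equiv.Perm (Fin 4) => g ^ 4 = 1 ∧ g ^ 2 ≠ 1)).card = 6 := by
  decide +kernel

theorem order_lt_of_perm4 {X : Type*} [Group X] (e : X ≃* Equiv.Perm (Fin 4)) (g : X) :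
    orderOf g ≤ 4 := by
  rw [← orderOf_injective e.toMonoidHom e.injective g]
  change orderOf (e g) ≤ 4
  rcases perm4_order (e g) with h | h | h | h
  · rw [h]; simp
  · exact (orderOf_le_of_pow_eq_one (by norm_num) h).trans (by norm_num)
  · exact (orderOf_le_of_pow_eq_one (by norm_num) h).trans (by norm_num)
  · exact (orderOf_le_of_pow_eq_one (by norm_num) h)

theorem order_of_alt5 {X : Type*} [Group X] (e : X ≃* alternatingGroup (Fin 5)) (g : X) :
    orderOf g ≤ 5 ∧ ¬ 4 ∣ orderOf g := by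
  have h0 : orderOf g = orderOf ((e g : alternatingGroup (Fin 5)) : Equiv.Perm (Fin 5)) := by
    rw [Subgroup.orderOf_coe]
    exact (orderOf_injective e.toMonoidHom e.injective g).symm
  rw [h0]
  rcases alt5_order _ (e g).2 with h | h | h | h
  · rw [h]; simp
  · have h1 := orderOf_dvd_of_pow_eq_one h
    refine ⟨(Nat.le_of_dvd (by norm_num) h1).trans (by norm_num), fun h2 => ?_⟩
    have := Nat.le_of_dvd (by norm_num) (h2.trans h1)
    omega
  · have h1 := orderOf_dvd_of_pow_eq_one h
    refine ⟨(Nat.le_of_dvd (by norm_num) h1).trans (by norm_num), fun h2 => ?_⟩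
    have := Nat.le_of_dvd (by norm_num) (h2.trans h1)
    omega
  · have h1 := orderOf_dvd_of_pow_eq_one h
    refine ⟨(Nat.le_of_dvd (by norm_num) h1), fun h2 => ?_⟩
    have := h2.trans h1
    omega

theorem order_of_alt4 {X : Type*} [Group X] (e : X ≃* alternatingGroup (Fin 4)) (g : X) :
    orderOf g ≤ 4 ∧ ¬ 4 ∣ orderOf g := by
  have h0 : orderOf g = orderOf ((e g : alternatingGroup (Fin 4)) : Equiv.Perm (Fin 4)) := by
    rw [Subgroup.orderOf_coe]
    exact (orderOf_injective e.toMonoidHom e.injective g).symm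
  have h5' : ∀ g : Equiv.Perm (Fin 4), Equiv.Perm.sign g = 1 → g ^ 2 = 1 ∨ g ^ 3 = 1 := by
    decide +kernel
  have h5 : ∀ g : Equiv.Perm (Fin 4), g ∈ alternatingGroup (Fin 4) → g ^ 2 = 1 ∨ g ^ 3 = 1 :=
    fun g hg => h5' g (Equiv.Perm.mem_alternatingGroup.mp hg)
  rw [h0]
  rcases h5 _ (e g).2 with h | h
  · have h1 := orderOf_dvd_of_pow_eq_one h
    refine ⟨(Nat.le_of_dvd (by norm_num) h1).trans (by norm_num), fun h2 => ?_⟩
    have := Nat.le_of_dvd (by norm_num) (h2.trans h1)
    omega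
  · have h1 := orderOf_dvd_of_pow_eq_one h
    refine ⟨(Nat.le_of_dvd (by norm_num) h1).trans (by norm_num), fun h2 => ?_⟩
    have := Nat.le_of_dvd (by norm_num) (h2.trans h1)
    omega

/-- In the dihedral case an element of order at least `3` fixes both points. -/
theorem dihedral_fix (K : KleinAction H Ω E p) {a b : Ω} (hab : a ≠ b)
    (h1 : ∀ g : H, g • a = a ∨ g • a = b) (h2 : ∀ g : H, g • a = a → g • b = b) {w : H}
    (hw : 3 ≤ orderOf w) : w • a = a ∧ w • b = b := by
  have hwa : w • a = a := by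
    rcases h1 w with h | h
    · exact h
    · exfalso
      have hwb : w • b = a := by
        rcases h1 w⁻¹ with h3 | h3
        · exfalso
          rw [inv_smul_eq_iff] at h3
          exact hab (h3.trans h)
        · rw [inv_smul_eq_iff] at h3
          exact h3.symm
      have h4 := (K.swap w a b hab h hwb).1
      have h5 : w ^ 2 = 1 := by rw [sq]; exact h4
      have := orderOf_le_of_pow_eq_one (by norm_num) h5
      omega
  exact ⟨hwa, h2 w hwa⟩

/-- The only possible shapes when `p ∤ |H|`. -/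
theorem shapes (K : KleinAction H Ω E p) (hp3 : 3 < p) (hcop : ¬ p ∣ Nat.card H) :
    Nat.card H = 1 ∨
    (∃ a b : Ω, a ≠ b ∧ ∀ w : H, 3 ≤ orderOf w → w • a = a ∧ w • b = b) ∨
    Nonempty (H ≃* alternatingGroup (Fin 4)) ∨ Nonempty (H ≃* Equiv.Perm (Fin 4)) ∨
    Nonempty (H ≃* alternatingGroup (Fin 5)) := by
  rcases K.classification with h | ⟨a, b, hab, h⟩ | ⟨a, b, hab, h1, h2, -, -⟩ | ⟨ω, h, -⟩ |
    ⟨-, h | h | h⟩ | ⟨h, -⟩ | ⟨h, m, hd⟩
  · exact Or.inl h
  · exact Or.inr (Or.inl ⟨a, b, hab, fun w _ => h w⟩)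
  · exact Or.inr (Or.inl ⟨a, b, hab, fun w hw => dihedral_fix K hab h1 h2 hw⟩)
  · exact absurd (unip_eq_bot K hcop ω) h
  · exact Or.inr (Or.inr (Or.inl h))
  · exact Or.inr (Or.inr (Or.inr (Or.inl h)))
  · exact Or.inr (Or.inr (Or.inr (Or.inr h)))
  · omega
  · obtain ⟨a, b, -, h3, -⟩ := hd.hexists
    exact absurd (unip_eq_bot K hcop a) h3

theorem mem_pair_of_fix (K : KleinAction H Ω E p) {a b x : Ω} (hab : a ≠ b) {w : H} (hw1 : w ≠ 1)
    (ha : w • a = a) (hb : w • b = b) (hx : w • x = x) : x = a ∨ x = b := by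
  rcases K.fix_three w a b x hw1 ha hb hx with h | h | h
  · exact absurd h hab
  · exact Or.inl h.symm
  · exact Or.inr h.symm

/-- **At most two points carry elements of order at least `6`.** -/
theorem three_points (K : KleinAction H Ω E p) (hp3 : 3 < p) (hcop : ¬ p ∣ Nat.card H)
    {x₁ x₂ x₃ : Ω} (h12 : x₁ ≠ x₂) (h13 : x₁ ≠ x₃) (h23 : x₂ ≠ x₃) {w₁ w₂ w₃ : H}
    (h1 : w₁ • x₁ = x₁) (h2 : w₂ • x₂ = x₂) (h3 : w₃ • x₃ = x₃)
    (o1 : 6 ≤ orderOf w₁) (o2 : 6 ≤ orderOf w₂) (o3 : 6 ≤ orderOf w₃) : False := by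
  have hne : ∀ w : H, 6 ≤ orderOf w → w ≠ 1 := by
    rintro w hw rfl
    simp at hw
  rcases shapes K hp3 hcop with h | ⟨a, b, hab, h⟩ | ⟨⟨e⟩⟩ | ⟨⟨e⟩⟩ | ⟨⟨e⟩⟩
  · have : Subsingleton H := (Nat.card_eq_one_iff_unique.mp h).1
    have := hne w₁ o1
    exact this (Subsingleton.elim _ _)
  · have f1 := h w₁ (by omega)
    have f2 := h w₂ (by omega)
    have f3 := h w₃ (by omega)
    have g1 := mem_pair_of_fix K hab (hne _ o1) f1.1 f1.2 h1
    have g2 := mem_pair_of_fix K hab (hne _ o2) f2.1 f2.2 h2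
    have g3 := mem_pair_of_fix K hab (hne _ o3) f3.1 f3.2 h3
    rcases g1 with rfl | rfl <;> rcases g2 with rfl | rfl <;> rcases g3 with rfl | rfl <;> simp_all
  · have := (order_of_alt4 e w₁).1
    omega
  · have := order_lt_of_perm4 e w₁
    omega
  · have := (order_of_alt5 e w₁).1
    omega

/-- **At most twelve points carry elements of order divisible by `4`.** -/
theorem card_le_twelve (K : KleinAction H Ω E p) (hp3 : 3 < p) (hcop : ¬ p ∣ Nat.card H)
    (L : Finset Ω) (hL : ∀ x ∈ L, ∃ w : H, w • x = x ∧ 4 ∣ orderOf w) : L.card ≤ 12 := by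
  classical
  have hne : ∀ w : H, 4 ∣ orderOf w → w ≠ 1 := by
    rintro w hw rfl
    simp at hw
  have hge : ∀ w : H, 4 ∣ orderOf w → 4 ≤ orderOf w := fun w hw =>
    Nat.le_of_dvd (orderOf_pos w) hw
  rcases shapes K hp3 hcop with h | ⟨a, b, hab, h⟩ | ⟨⟨e⟩⟩ | ⟨⟨e⟩⟩ | ⟨⟨e⟩⟩
  · have : Subsingleton H := (Nat.card_eq_one_iff_unique.mp h).1
    have hemp : L = ∅ := by
      rw [Finset.eq_empty_iff_forall_notMem]
      intro x hx
      obtain ⟨w, -, hw⟩ := hL x hx
      exact hne w hw (Subsingleton.elim _ _)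
    simp [hemp]
  · have hsub : L ⊆ {a, b} := by
      intro x hx
      obtain ⟨w, h1, hw⟩ := hL x hx
      have f := h w (by have := hge w hw; omega)
      have := mem_pair_of_fix K hab (hne w hw) f.1 f.2 h1
      simpa using this
    have := Finset.card_le_card hsub
    have h2 : ({a, b} : Finset Ω).card ≤ 2 := Finset.card_le_two
    omega
  · have hemp : L = ∅ := by
      rw [Finset.eq_empty_iff_forall_notMem]
      intro x hx
      obtain ⟨w, -, hw⟩ := hL x hx
      exact (order_of_alt4 e w).2 hw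
    simp [hemp]
  · -- the case of `S₄`
    haveI : Fintype H := Fintype.ofFinite H
    choose! f hf1 hf2 using hL
    set W : Finset H := Finset.univ.filter (fun g : H => 4 ∣ orderOf g) with hW
    have hWcard : W.card ≤ 6 := by
      rw [← perm4_count]
      refine Finset.card_le_card_of_injOn (fun g => e g) ?_ ?_
      · intro g hg
        have hg' : 4 ∣ orderOf g := by simpa [hW] using hg
        have h4 : orderOf (e g) = orderOf g := orderOf_injective e.toMonoidHom e.injective g
        have h5 : 4 ∣ orderOf (e g) := h4 ▸ hg'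
        have hle := order_lt_of_perm4 (MulEquiv.refl _) (e g)
        have h6 : orderOf (e g) = 4 := by
          have := Nat.le_of_dvd (orderOf_pos _) h5
          change orderOf (e g) ≤ 4 at hle
          omega
        have hmem : e g ^ 4 = 1 ∧ e g ^ 2 ≠ 1 := by
          refine ⟨?_, fun h7 => ?_⟩
          · have := pow_orderOf_eq_one (e g)
            rwa [h6] at this
          · have := orderOf_le_of_pow_eq_one (by norm_num) h7
            omega
        simpa using hmem
      · intro a _ b _ hab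
        exact e.injective hab
    have hmaps : ∀ x ∈ L, f x ∈ W := fun x hx => by
      simpa [hW] using hf2 x hx
    have hfib : ∀ w ∈ W, (L.filter (fun x => f x = w)).card ≤ 2 := by
      intro w hw
      by_contra hc
      push Not at hc
      obtain ⟨x, y, z, hx, hy, hz, hxy, hxz, hyz⟩ := Finset.two_lt_card_iff.mp hc
      simp only [Finset.mem_filter] at hx hy hz
      have hw4 : 4 ∣ orderOf w := by simpa [hW] using hw
      have e1 : w • x = x := by rw [← hx.2]; exact hf1 x hx.1
      have e2 : w • y = y := by rw [← hy.2]; exact hf1 y hy.1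
      have e3 : w • z = z := by rw [← hz.2]; exact hf1 z hz.1
      rcases K.fix_three w x y z (hne w hw4) e1 e2 e3 with h | h | h
      · exact hxy h
      · exact hxz h
      · exact hyz h
    have hbound := Finset.card_le_mul_card_image_of_maps_to (s := L) (t := W) (f := f) hmaps 2 hfib
    calc L.card ≤ 2 * W.card := hbound
      _ ≤ 12 := by omega
  · have hemp : L = ∅ := by
      rw [Finset.eq_empty_iff_forall_notMem]
      intro x hx
      obtain ⟨w, -, hw⟩ := hL x hx
      exact (order_of_alt5 e w).2 hw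
    simp [hemp]

end Cfsg.Agent.Lib.ExtraCube.KleinBound
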