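import Cfsg.Agent.Lib.ExtraCube.Rep

/-!
# Radical lines of an extraspecial Sylow subgroup of order `p³`

If `⟨z, y⟩` is "radical" for three lines (`p ≥ 17` or `p = 11`), or for all lines (`p = 13`), we get a
contradiction from the structure of `p'`-subgroups of `PGL₂`.
-/

set_option autoImplicit false
set_option linter.unusedSectionVars false
set_option linter.style.haveILetI false
set_option linter.unusedVariables false

open scoped MatrixGroups
open Subgroup Matrix Module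

namespace Cfsg.Agent.Lib.ExtraCube.Main

open Cfsg.Agent.Lib.Classical.SL2.Moebius Cfsg.Agent.Lib.Classical.SL2.Klein
  Cfsg.Agent.Lib.ExtraCube.Basic Cfsg.Agent.Lib.ExtraCube.Rep Cfsg.Agent.Lib.ExtraCube.KleinBound

universe v

variable {G : Type v} [Group G] [Finite G] {p : ℕ} [hp : Fact p.Prime]

/-- The line through `y` is radical. -/
def IsRad (z y : G) (p : ℕ) [Fact p.Prime] : Prop :=
  ∀ a : ZMod p, a ≠ 0 → ∃ h : G, h * z * h⁻¹ = z ^ a.val ∧ h * y * h⁻¹ = y ^ (a⁻¹).val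

theorem exists_primitive (p : ℕ) [hp : Fact p.Prime] : ∃ a : ZMod p, a ≠ 0 ∧ orderOf a = p - 1 := by
  obtain ⟨g, hg⟩ := IsCyclic.exists_generator (α := (ZMod p)ˣ)
  refine ⟨(g : ZMod p), g.ne_zero, ?_⟩
  rw [orderOf_units, orderOf_eq_card_of_forall_mem_zpowers hg, Nat.card_eq_fintype_card,
    ZMod.card_units]

theorem six_le {a : ZMod p} (ha : orderOf a = p - 1) (h : 17 ≤ p ∨ p = 11) : 6 ≤ orderOf (a ^ 3) := by
  rw [orderOf_pow' _ (by norm_num), ha]
  rcases h with h | h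
  · have hg : Nat.gcd (p - 1) 3 ≤ 3 := Nat.gcd_le_right _ (by norm_num)
    by_cases h19 : 19 ≤ p
    · have h2 : (p - 1) / 3 ≤ (p - 1) / Nat.gcd (p - 1) 3 :=
        Nat.div_le_div_left hg (Nat.gcd_pos_of_pos_right _ (by norm_num))
      have h3 : 6 ≤ (p - 1) / 3 := by omega
      omega
    · have : p = 17 ∨ p = 18 := by omega
      rcases this with rfl | rfl <;> norm_num
  · subst h
    norm_num

theorem order_thirteen {a : ZMod p} (ha : orderOf a = p - 1) (h : p = 13) : orderOf (a ^ 3) = 4 := by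
  rw [orderOf_pow' _ (by norm_num), ha]
  subst h
  norm_num

section Setup

variable (P : Sylow p G) {z : G} {V : Type*} [AddCommGroup V] [Module (ZMod p) V]
  [FiniteDimensional (ZMod p) V] (C : Ctx (P : Subgroup G) p z) (S : Sec (P : Subgroup G) p z V)
  (b : Module.Basis (Fin 2) (ZMod p) V) (E : Type*) [Field E] [Algebra (ZMod p) E] [DecidableEq E]

include C in
lemma exists_elt {y : G} (hy : y ∈ (P : Subgroup G)) (hy' : y ∉ zpowers z) {a : ZMod p} (ha : a ≠ 0)
    (hrad : ∃ h : G, h * z * h⁻¹ = z ^ a.val ∧ h * y * h⁻¹ = y ^ (a⁻¹).val) [CharP E p] :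
    ∃ w : ↥(normalizer (((P : Subgroup G)) : Set G)),
      (Phi S b E w) • Rep.pt E (b.repr (S.vec ⟨y, hy⟩)) = Rep.pt E (b.repr (S.vec ⟨y, hy⟩)) ∧
      orderOf (a ^ 3) ∣ orderOf (Phi S b E w) := by
  obtain ⟨w, h1, h2⟩ := key P C S hy hy' ha hrad
  refine ⟨w, ?_, ?_⟩
  · have hne : (⇑(b.repr (S.vec ⟨y, hy⟩)) : Fin 2 → ZMod p) ≠ 0 := by
      intro h0
      apply hy'
      have h3 : b.repr (S.vec ⟨y, hy⟩) = 0 := by
        ext i
        exact congrFun h0 i
      have h4 : S.vec ⟨y, hy⟩ = 0 := by simpa using h3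
      exact (S.vec_zero _).1 h4
    have h5 := matHom_mulVec S b w (S.vec ⟨y, hy⟩)
    rw [h1, map_smul] at h5
    rw [Phi_apply, Cfsg.Agent.Lib.Classical.SL2.Moebius.mk_smul]
    exact Rep.fix_pt E _ (inv_ne_zero ha) hne (by rw [h5]; rfl)
  · apply orderOf_dvd_of_pow_eq_one
    have h3 : (Phi S b E w) ^ orderOf (Phi S b E w) = 1 := pow_orderOf_eq_one _
    rw [← map_pow] at h3
    have h4 := h2 _ (Phi_eq_one_imp S b E h3)
    rw [← pow_mul]
    exact h4

include C in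
lemma not_dvd_card : ¬ p ∣ Nat.card (Phi S b E).range := by
  intro h
  set N := normalizer (((P : Subgroup G)) : Set G) with hN
  have hle : (P : Subgroup G).subgroupOf N ≤ (Phi S b E).ker := by
    rintro g hg
    rw [Subgroup.mem_subgroupOf] at hg
    rw [MonoidHom.mem_ker, Phi_apply]
    have h1 : matHom S b g = 1 := by
      apply Units.ext
      rw [matHom_coe]
      have h2 : S.ρ g = 1 := by
        ext v
        exact S.ρ_of_mem C g hg v
      rw [h2]
      exact LinearMap.toMatrix_one b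
    rw [h1, map_one, map_one]
  have h1 : Nat.card (Phi S b E).range ∣ ((P : Subgroup G).subgroupOf N).index := by
    rw [← Subgroup.index_ker]
    exact Subgroup.index_dvd_of_le hle
  have h2 : ((P : Subgroup G).subgroupOf N).index ∣ (P : Subgroup G).index := by
    have h3 := Subgroup.relIndex_mul_index (Subgroup.le_normalizer (H := (P : Subgroup G)))
    exact Dvd.intro _ h3
  exact P.not_dvd_index (h.trans (h1.trans h2))

end Setup

/-- **Three radical lines are impossible** when `p ≥ 17` or `p = 11`. -/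
theorem three_lines (P : Sylow p G) {z : G} (C : Ctx (P : Subgroup G) p z)
    (hp' : 17 ≤ p ∨ p = 11) {y₁ y₂ y₃ : G}
    (h1 : y₁ ∈ (P : Subgroup G)) (h2 : y₂ ∈ (P : Subgroup G)) (h3 : y₃ ∈ (P : Subgroup G))
    (h1' : y₁ ∉ zpowers z) (h2' : y₂ ∉ zpowers z) (h3' : y₃ ∉ zpowers z)
    (h12 : ∀ n : ℕ, ∀ ζ ∈ zpowers z, y₂ ≠ y₁ ^ n * ζ)
    (h13 : ∀ n : ℕ, ∀ ζ ∈ zpowers z, y₃ ≠ y₁ ^ n * ζ)
    (h23 : ∀ n : ℕ, ∀ ζ ∈ zpowers z, y₃ ≠ y₂ ^ n * ζ)
    (r1 : IsRad z y₁ p) (r2 : IsRad z y₂ p) (r3 : IsRad z y₃ p) : False := by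
  classical
  obtain ⟨V, i1, i2, i3, ⟨S⟩⟩ := exists_sec C
  let b : Module.Basis (Fin 2) (ZMod p) V := Module.finBasisOfFinrankEq _ _ (S.finrank_eq C)
  let E := AlgebraicClosure (ZMod p)
  haveI : CharP E p := charP_of_injective_algebraMap (algebraMap (ZMod p) E).injective p
  let H := (Phi S b E).range
  haveI : Finite H := Finite.of_surjective (Phi S b E).rangeRestrict (MonoidHom.rangeRestrict_surjective _)
  let K : KleinAction H (OnePoint E) E p :=
    (kleinPGL (E := E) p).comap H.subtype H.subtype_injective (fun _ _ => rfl)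
  have hcop : ¬ p ∣ Nat.card H := not_dvd_card P C S b E
  have hp3 : 3 < p := by omega
  obtain ⟨a, ha0, ha⟩ := exists_primitive p
  have h6 := six_le ha hp'
  obtain ⟨w₁, f1, o1⟩ := exists_elt P C S b E h1 h1' ha0 (r1 a ha0)
  obtain ⟨w₂, f2, o2⟩ := exists_elt P C S b E h2 h2' ha0 (r2 a ha0)
  obtain ⟨w₃, f3, o3⟩ := exists_elt P C S b E h3 h3' ha0 (r3 a ha0)
  have hpos : ∀ g : Matrix.ProjGenLinGroup (Fin 2) E, g ∈ H → 0 < orderOf g := by
    rintro g ⟨x, rfl⟩
    exact Nat.pos_of_ne_zero fun h0 => by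
      have h7 : orderOf x ≠ 0 := (orderOf_pos x).ne'
      have h8 := orderOf_map_dvd (Phi S b E) x
      rw [h0] at h8
      exact h7 (Nat.eq_zero_of_zero_dvd h8)
  have hge : ∀ w : ↥(normalizer (((P : Subgroup G)) : Set G)), orderOf (a ^ 3) ∣ orderOf (Phi S b E w) →
      6 ≤ orderOf (⟨Phi S b E w, MonoidHom.mem_range.2 ⟨w, rfl⟩⟩ : H) := by
    intro w hw
    rw [Subgroup.orderOf_mk]
    exact h6.trans (Nat.le_of_dvd (hpos _ ⟨w, rfl⟩) hw)
  have hvne : ∀ {y : G} (hy : y ∈ (P : Subgroup G)), y ∉ zpowers z →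
      (⇑(b.repr (S.vec ⟨y, hy⟩)) : Fin 2 → ZMod p) ≠ 0 := by
    intro y hy hy' h0
    apply hy'
    have h3 : b.repr (S.vec ⟨y, hy⟩) = 0 := by
      ext i
      exact congrFun h0 i
    have h4 : S.vec ⟨y, hy⟩ = 0 := by simpa using h3
    exact (S.vec_zero _).1 h4
  have hdist : ∀ {x y : G} (hx : x ∈ (P : Subgroup G)) (hy : y ∈ (P : Subgroup G)), x ∉ zpowers z →
      y ∉ zpowers z → (∀ n : ℕ, ∀ ζ ∈ zpowers z, y ≠ x ^ n * ζ) →
      Rep.pt E (b.repr (S.vec ⟨x, hx⟩)) ≠ Rep.pt E (b.repr (S.vec ⟨y, hy⟩)) := by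
    intro x y hx hy hx' hy' hxy he
    obtain ⟨s, hs⟩ := Rep.pt_eq_imp E (hvne hx hx') (hvne hy hy') he
    have h4 : S.vec ⟨y, hy⟩ = s • S.vec ⟨x, hx⟩ := by
      apply b.repr.injective
      ext i
      have := congrFun hs i
      simpa using this
    have h5 : S.vec ⟨y, hy⟩ = S.vec (⟨x, hx⟩ ^ s.val) := by
      rw [h4, S.vec_pow_smul _ _ (C.exp x hx)]
    have h6 := (S.vec_eq_iff _ _).1 h5.symm
    refine hxy s.val _ ((S.vec_eq_iff _ _).1 h5.symm) ?_
    push_cast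
    group
  exact three_points K hp3 hcop (x₁ := Rep.pt E (b.repr (S.vec ⟨y₁, h1⟩)))
    (x₂ := Rep.pt E (b.repr (S.vec ⟨y₂, h2⟩))) (x₃ := Rep.pt E (b.repr (S.vec ⟨y₃, h3⟩)))
    (hdist h1 h2 h1' h2' h12) (hdist h1 h3 h1' h3' h13) (hdist h2 h3 h2' h3' h23)
    (w₁ := ⟨Phi S b E w₁, MonoidHom.mem_range.2 ⟨w₁, rfl⟩⟩)
    (w₂ := ⟨Phi S b E w₂, MonoidHom.mem_range.2 ⟨w₂, rfl⟩⟩)
    (w₃ := ⟨Phi S b E w₃, MonoidHom.mem_range.2 ⟨w₃, rfl⟩⟩)
    f1 f2 f3 (hge _ o1) (hge _ o2) (hge _ o3)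

/-- **All lines radical is impossible** when `p = 13`. -/
theorem all_lines_thirteen (P : Sylow p G) {z : G} (C : Ctx (P : Subgroup G) p z)
    (hp' : p = 13)
    (hall : ∀ y ∈ (P : Subgroup G), y ∉ zpowers z → IsRad z y p) : False := by
  classical
  obtain ⟨V, i1, i2, i3, ⟨S⟩⟩ := exists_sec C
  let b : Module.Basis (Fin 2) (ZMod p) V := Module.finBasisOfFinrankEq _ _ (S.finrank_eq C)
  let E := AlgebraicClosure (ZMod p)
  haveI : CharP E p := charP_of_injective_algebraMap (algebraMap (ZMod p) E).injective p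
  let H := (Phi S b E).range
  haveI : Finite H := Finite.of_surjective (Phi S b E).rangeRestrict (MonoidHom.rangeRestrict_surjective _)
  let K : KleinAction H (OnePoint E) E p :=
    (kleinPGL (E := E) p).comap H.subtype H.subtype_injective (fun _ _ => rfl)
  have hcop : ¬ p ∣ Nat.card H := not_dvd_card P C S b E
  have hp3 : 3 < p := by omega
  obtain ⟨a, ha0, ha⟩ := exists_primitive p
  have h4 := order_thirteen ha hp'
  -- the points `t`, `t ∈ 𝔽_p`
  let f : ZMod p → OnePoint E := fun t => ((algebraMap (ZMod p) E t : E) : OnePoint E)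
  have hf : Function.Injective f := fun s t h =>
    (algebraMap (ZMod p) E).injective (OnePoint.coe_eq_coe.1 h)
  haveI : Fintype (ZMod p) := ZMod.fintype p
  let L : Finset (OnePoint E) := Finset.univ.image f
  have hLcard : L.card = 13 := by
    rw [Finset.card_image_of_injective _ hf, Finset.card_univ, ZMod.card, hp']
  have hL : ∀ x ∈ L, ∃ w : H, w • x = x ∧ 4 ∣ orderOf w := by
    intro x hx
    obtain ⟨t, -, rfl⟩ := Finset.mem_image.1 hx
    obtain ⟨⟨y, hy⟩, hv⟩ := S.vec_surj (b.repr.symm (Finsupp.equivFunOnFinite.symm ![t, 1]))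
    have hc : b.repr (S.vec ⟨y, hy⟩) = Finsupp.equivFunOnFinite.symm ![t, 1] := by
      rw [hv]
      simp
    have hy' : y ∉ zpowers z := by
      intro h
      have h0 := (S.vec_zero ⟨y, hy⟩).2 h
      rw [h0, map_zero] at hc
      have := DFunLike.congr_fun hc 1
      simp at this
    obtain ⟨w, f1, o1⟩ := exists_elt P C S b E hy hy' ha0 (hall y hy hy' a ha0)
    have e1 : Rep.pt E (b.repr (S.vec ⟨y, hy⟩)) = f t := by
      unfold Rep.pt
      rw [hc]
      simp [f]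
    rw [e1] at f1
    refine ⟨⟨Phi S b E w, MonoidHom.mem_range.2 ⟨w, rfl⟩⟩, f1, ?_⟩
    rw [Subgroup.orderOf_mk, ← h4]
    exact o1
  have := card_le_twelve K hp3 hcop L hL
  omega

end Cfsg.Agent.Lib.ExtraCube.Main
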