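import Cfsg.Agent.Lib.ExtraCube.Basic

/-!
# The action of `N_G(P)` on `P / Z(P)` and the map to `PGL₂`
-/

set_option autoImplicit false
set_option linter.unusedSectionVars false
set_option linter.style.haveILetI false
set_option linter.unusedVariables false

open scoped MatrixGroups
open Subgroup Matrix Module

namespace Cfsg.Agent.Lib.ExtraCube.Rep

open Cfsg.Agent.Lib.Classical.SL2.Moebius Cfsg.Agent.Lib.ExtraCube.Basic

universe v

variable {G : Type v} [Group G] {p : ℕ} [hp : Fact p.Prime]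

/-- The module `P / ⟨z⟩` with the action of `N_G(P)`. -/
structure Sec (P : Subgroup G) (p : ℕ) [Fact p.Prime] (z : G) (V : Type*) [AddCommGroup V]
    [Module (ZMod p) V] where
  ρ : ↥(normalizer (P : Set G)) →* Module.End (ZMod p) V
  vec : ↥P → V
  vec_mul : ∀ a b, vec (a * b) = vec a + vec b
  vec_surj : Function.Surjective vec
  vec_zero : ∀ a, vec a = 0 ↔ (a : G) ∈ zpowers z
  ρ_vec : ∀ (g : ↥(normalizer (P : Set G))) (a b : ↥P), (b : G) = g * a * g⁻¹ → ρ g (vec a) = vec b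

/-- Existence of the module. -/
theorem exists_sec [Finite G] {P : Subgroup G} {z : G} (C : Ctx P p z) :
    ∃ (V : Type v) (_ : AddCommGroup V) (_ : Module (ZMod p) V) (_ : FiniteDimensional (ZMod p) V),
      Nonempty (Sec P p z V) := by
  classical
  set N := normalizer (P : Set G) with hN
  have hPN : P ≤ N := Subgroup.le_normalizer
  have hzN : zpowers z ≤ N := C.zpowers_le.trans hPN
  let T : Subgroup N := P.subgroupOf N
  let N₀ : Subgroup N := (zpowers z).subgroupOf N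
  haveI hTn : T.Normal := Subgroup.normal_in_normalizer
  haveI hN₀n : N₀.Normal := by
    constructor
    rintro ⟨x, hx⟩ hx' ⟨g, hg⟩
    rw [Subgroup.mem_subgroupOf] at hx' ⊢
    change g * x * g⁻¹ ∈ zpowers z
    obtain ⟨k, rfl⟩ := hx'
    simp only
    rw [← conj_zpow]
    exact Subgroup.zpow_mem _ (C.conj_z_mem hg) k
  obtain ⟨V, i1, i2, i3, ρ, π, h1, h2, h3, h4⟩ :=
    Cfsg.Agent.Lib.HallHigman.Section.exists_section_module (p := p) N₀ T
      (fun x hx => by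
        rw [Subgroup.mem_subgroupOf] at hx ⊢
        exact C.zpowers_le hx)
      (fun a ha b hb => by
        rw [Subgroup.mem_subgroupOf] at ha hb ⊢
        exact C.comm _ ha _ hb)
      (fun a ha => by
        rw [Subgroup.mem_subgroupOf] at ha ⊢
        have : (((a ^ p : N)) : G) = 1 := by
          rw [Subgroup.coe_pow]
          exact C.exp _ ha
        rw [this]
        exact one_mem _)
  refine ⟨V, i1, i2, i3, ⟨{
    ρ := ρ
    vec := fun x => π ⟨⟨x, hPN x.2⟩, x.2⟩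
    vec_mul := fun a b => h1 ⟨⟨a, hPN a.2⟩, a.2⟩ ⟨⟨b, hPN b.2⟩, b.2⟩
    vec_surj := fun v => ?_
    vec_zero := fun a => ?_
    ρ_vec := fun g a b hb => ?_ }⟩⟩
  · obtain ⟨⟨⟨x, hx⟩, hx'⟩, rfl⟩ := h2 v
    exact ⟨⟨x, hx'⟩, rfl⟩
  · rw [h3]
    rfl
  · apply h4
    exact Subtype.ext hb

namespace Sec

variable {P : Subgroup G} {z : G} {V : Type*} [AddCommGroup V] [Module (ZMod p) V]

lemma vec_one (S : Sec P p z V) : S.vec 1 = 0 := by
  have := S.vec_mul 1 1
  simpa using this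

lemma vec_pow (S : Sec P p z V) (x : ↥P) (n : ℕ) : S.vec (x ^ n) = n • S.vec x := by
  induction n with
  | zero => simp [S.vec_one]
  | succ n ih => rw [pow_succ, S.vec_mul, ih, succ_nsmul]

lemma vec_pow_smul (S : Sec P p z V) (x : ↥P) (a : ZMod p) (hx : (x : G) ^ p = 1) :
    S.vec (x ^ a.val) = a • S.vec x := by
  rw [S.vec_pow, ← Nat.cast_smul_eq_nsmul (ZMod p), ZMod.natCast_zmod_val]

lemma vec_pow_natCast (S : Sec P p z V) (x : ↥P) (n : ℕ) :
    S.vec (x ^ n) = (n : ZMod p) • S.vec x := by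
  rw [S.vec_pow, Nat.cast_smul_eq_nsmul]

lemma vec_inv (S : Sec P p z V) (x : ↥P) : S.vec x⁻¹ = - S.vec x := by
  have := S.vec_mul x⁻¹ x
  rw [inv_mul_cancel, S.vec_one] at this
  exact eq_neg_of_add_eq_zero_left this.symm

lemma vec_eq_iff (S : Sec P p z V) (a b : ↥P) : S.vec a = S.vec b ↔ ((a⁻¹ * b : ↥P) : G) ∈ zpowers z := by
  rw [← S.vec_zero, S.vec_mul, S.vec_inv, neg_add_eq_zero]

/-- `P` acts trivially. -/
lemma ρ_of_mem (S : Sec P p z V) (C : Ctx P p z) (g : ↥(normalizer (P : Set G))) (hg : (g : G) ∈ P)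
    (v : V) : S.ρ g v = v := by
  obtain ⟨a, rfl⟩ := S.vec_surj v
  have hb : (g : G) * a * (g : G)⁻¹ ∈ P := P.mul_mem (P.mul_mem hg a.2) (P.inv_mem hg)
  rw [S.ρ_vec g a ⟨_, hb⟩ rfl, S.vec_eq_iff]
  have h1 := C.comm g hg (a : G)⁻¹ (P.inv_mem a.2)
  have e : ((⟨_, hb⟩ : ↥P)⁻¹ * a : ↥P).1 = (g : G) * (a : G)⁻¹ * (g : G)⁻¹ * ((a : G)⁻¹)⁻¹ := by
    change ((g : G) * a * (g : G)⁻¹)⁻¹ * a = _
    group
  rw [e]
  exact h1

lemma card_eq [Finite G] (S : Sec P p z V) (C : Ctx P p z) : Nat.card V = p ^ 2 := by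
  classical
  let f : ↥P →* Multiplicative V :=
    { toFun := fun x => Multiplicative.ofAdd (S.vec x)
      map_one' := by rw [S.vec_one]; rfl
      map_mul' := fun a b => by rw [S.vec_mul]; rfl }
  have hsurj : Function.Surjective f := fun v => by
    obtain ⟨a, ha⟩ := S.vec_surj (Multiplicative.toAdd v)
    exact ⟨a, by change Multiplicative.ofAdd (S.vec a) = v; rw [ha]; rfl⟩
  have hker : f.ker = (zpowers z).subgroupOf P := by
    ext x
    rw [MonoidHom.mem_ker, Subgroup.mem_subgroupOf, ← S.vec_zero]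
    change Multiplicative.ofAdd (S.vec x) = 1 ↔ _
    rw [ofAdd_eq_one]
  have h1 : Nat.card f.ker * f.ker.index = Nat.card P := Subgroup.card_mul_index _
  have h2 : f.ker.index = Nat.card V := by
    rw [Subgroup.index_ker, MonoidHom.range_eq_top.2 hsurj, Subgroup.card_top]
    rfl
  have h3 : Nat.card f.ker = p := by
    rw [hker, Nat.card_congr (Subgroup.subgroupOfEquivOfLe C.zpowers_le).toEquiv, Nat.card_zpowers,
      C.orderOf_z]
  rw [h2, h3, C.card] at h1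
  have hp0 : 0 < p := hp.out.pos
  have : p * Nat.card V = p * p ^ 2 := by rw [h1]; ring
  exact Nat.eq_of_mul_eq_mul_left hp0 this

lemma finrank_eq [Finite G] [FiniteDimensional (ZMod p) V] (S : Sec P p z V) (C : Ctx P p z) :
    finrank (ZMod p) V = 2 := by
  have h1 := S.card_eq C
  rw [Module.natCard_eq_pow_finrank (K := ZMod p), Nat.card_zmod] at h1
  exact Nat.pow_right_injective hp.out.two_le h1

end Sec

section Phi

variable {P : Subgroup G} {z : G} {V : Type*} [AddCommGroup V] [Module (ZMod p) V]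
  (S : Sec P p z V) (b : Module.Basis (Fin 2) (ZMod p) V)

/-- The matrix representation. -/
noncomputable def matHom : ↥(normalizer (P : Set G)) →* GL (Fin 2) (ZMod p) :=
  MonoidHom.toHomUnits
    { toFun := fun g => LinearMap.toMatrix b b (S.ρ g)
      map_one' := by
        rw [map_one]
        exact LinearMap.toMatrix_one b
      map_mul' := fun g h => by
        rw [map_mul]
        exact LinearMap.toMatrix_mul b _ _ }

lemma matHom_coe (g : ↥(normalizer (P : Set G))) :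
    ((matHom S b g : GL (Fin 2) (ZMod p)) : Matrix (Fin 2) (Fin 2) (ZMod p)) =
      LinearMap.toMatrix b b (S.ρ g) := rfl

lemma matHom_mulVec (g : ↥(normalizer (P : Set G))) (v : V) :
    ((matHom S b g : GL (Fin 2) (ZMod p)) : Matrix (Fin 2) (Fin 2) (ZMod p)).mulVec (b.repr v) =
      b.repr (S.ρ g v) := by
  rw [matHom_coe]
  exact LinearMap.toMatrix_mulVec_repr b b _ v

variable (E : Type*) [Field E] [Algebra (ZMod p) E] [DecidableEq E]

/-- The map to `PGL₂(E)`. -/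
noncomputable def Phi : ↥(normalizer (P : Set G)) →* Matrix.ProjGenLinGroup (Fin 2) E :=
  (Matrix.ProjGenLinGroup.mk).comp
    ((Matrix.GeneralLinearGroup.map (algebraMap (ZMod p) E)).comp (matHom S b))

lemma Phi_apply (g : ↥(normalizer (P : Set G))) :
    Phi S b E g = Matrix.ProjGenLinGroup.mk (Matrix.GeneralLinearGroup.map (algebraMap (ZMod p) E) (matHom S b g)) := rfl

/-- The point of the projective line with given coordinates. -/
noncomputable def pt (c : Fin 2 → ZMod p) : OnePoint E :=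
  if c 1 = 0 then OnePoint.infty else ((algebraMap (ZMod p) E (c 0 / c 1) : E) : OnePoint E)

/-- Eigenvectors give fixed points. -/
lemma fix_pt (M : GL (Fin 2) (ZMod p)) {c : Fin 2 → ZMod p} {μ : ZMod p} (hμ : μ ≠ 0)
    (hc : c ≠ 0) (h : (M : Matrix (Fin 2) (Fin 2) (ZMod p)).mulVec c = μ • c) :
    (Matrix.GeneralLinearGroup.map (algebraMap (ZMod p) E) M) • pt E c = pt E c := by
  have h0 : M 0 0 * c 0 + M 0 1 * c 1 = μ * c 0 := by
    have := congrFun h 0
    simpa [Matrix.mulVec, dotProduct, Fin.sum_univ_two] using this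
  have h1 : M 1 0 * c 0 + M 1 1 * c 1 = μ * c 1 := by
    have := congrFun h 1
    simpa [Matrix.mulVec, dotProduct, Fin.sum_univ_two] using this
  have hal : Function.Injective (algebraMap (ZMod p) E) := (algebraMap (ZMod p) E).injective
  unfold pt
  by_cases hc1 : c 1 = 0
  · rw [if_pos hc1, OnePoint.smul_infty_eq_self_iff]
    have hc0 : c 0 ≠ 0 := by
      intro h00
      apply hc
      ext i
      fin_cases i <;> simp [h00, hc1]
    rw [hc1, mul_zero, add_zero, mul_zero] at h1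
    have : M 1 0 = 0 := (mul_eq_zero.1 h1).resolve_right hc0
    simp [Matrix.GeneralLinearGroup.map_apply, this]
  · rw [if_neg hc1, OnePoint.smul_some_eq_ite]
    set t := c 0 / c 1 with ht
    have hc0 : c 0 = t * c 1 := by rw [ht]; field_simp
    have e1 : M 1 0 * t + M 1 1 = μ := by
      have : (M 1 0 * t + M 1 1) * c 1 = μ * c 1 := by rw [← h1, hc0]; ring
      exact mul_right_cancel₀ hc1 this
    have e0 : M 0 0 * t + M 0 1 = μ * t := by
      have : (M 0 0 * t + M 0 1) * c 1 = (μ * t) * c 1 := by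
        rw [mul_assoc, ← hc0, ← h0, hc0]; ring
      exact mul_right_cancel₀ hc1 this
    simp only [Matrix.GeneralLinearGroup.map_apply]
    have e1' : algebraMap (ZMod p) E (M 1 0) * algebraMap (ZMod p) E t + algebraMap (ZMod p) E (M 1 1) =
        algebraMap (ZMod p) E μ := by
      rw [← map_mul, ← map_add, e1]
    have e0' : algebraMap (ZMod p) E (M 0 0) * algebraMap (ZMod p) E t + algebraMap (ZMod p) E (M 0 1) =
        algebraMap (ZMod p) E μ * algebraMap (ZMod p) E t := by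
      rw [← map_mul, ← map_add, ← map_mul, e0]
    have hμ' : algebraMap (ZMod p) E μ ≠ 0 := by
      rw [Ne, map_eq_zero]
      exact hμ
    rw [e1', if_neg hμ', e0', mul_div_cancel_left₀ _ hμ']

/-- Proportional vectors. -/
lemma pt_eq_imp {c d : Fin 2 → ZMod p} (hc : c ≠ 0) (hd : d ≠ 0) (h : pt E c = pt E d) :
    ∃ s : ZMod p, d = s • c := by
  have hal : Function.Injective (algebraMap (ZMod p) E) := (algebraMap (ZMod p) E).injective
  unfold pt at h
  by_cases hc1 : c 1 = 0 <;> by_cases hd1 : d 1 = 0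
  · have hc0 : c 0 ≠ 0 := by
      intro h00
      apply hc
      ext i
      fin_cases i <;> simp [h00, hc1]
    refine ⟨d 0 / c 0, ?_⟩
    ext i
    fin_cases i
    · simp; field_simp
    · simp [hc1, hd1]
  · rw [if_pos hc1, if_neg hd1] at h
    exact absurd h (OnePoint.infty_ne_coe _)
  · rw [if_neg hc1, if_pos hd1] at h
    exact absurd h.symm (OnePoint.infty_ne_coe _)
  · rw [if_neg hc1, if_neg hd1, OnePoint.coe_eq_coe] at h
    have h2 := hal h
    refine ⟨d 1 / c 1, ?_⟩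
    ext i
    fin_cases i
    · simp
      rw [div_eq_div_iff hc1 hd1] at h2
      field_simp
      linear_combination -h2
    · simp; field_simp

lemma Phi_eq_one_imp [CharP E p] {g : ↥(normalizer (P : Set G))} (h : Phi S b E g = 1) :
    ∃ μ : ZMod p, ∀ v, S.ρ g v = μ • v := by
  have hal : Function.Injective (algebraMap (ZMod p) E) := (algebraMap (ZMod p) E).injective
  rw [Phi_apply] at h
  obtain ⟨h1, h2, h3⟩ := entries_of_scalar h
  simp only [Matrix.GeneralLinearGroup.map_apply] at h1 h2 h3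
  set Mm : Matrix (Fin 2) (Fin 2) (ZMod p) :=
    ((matHom S b g : GL (Fin 2) (ZMod p)) : Matrix (Fin 2) (Fin 2) (ZMod p)) with hMm
  have h1' : Mm 1 0 = 0 := hal (by rw [map_zero]; exact h1)
  have h2' : Mm 0 1 = 0 := hal (by rw [map_zero]; exact h2)
  have h3' : Mm 0 0 = Mm 1 1 := hal h3
  refine ⟨Mm 0 0, fun v => ?_⟩
  have h4 : Mm.mulVec (b.repr v) = b.repr (S.ρ g v) := matHom_mulVec S b g v
  apply b.repr.injective
  ext i
  rw [← congrFun h4 i, map_smul]
  fin_cases i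
  · simp [Matrix.mulVec, dotProduct, Fin.sum_univ_two, h2']
  · simp [Matrix.mulVec, dotProduct, Fin.sum_univ_two, h1', h3']

end Phi

section Key

variable [Finite G] (P : Sylow p G) {z : G} {V : Type*} [AddCommGroup V] [Module (ZMod p) V]
  [FiniteDimensional (ZMod p) V] (C : Ctx (P : Subgroup G) p z) (S : Sec (P : Subgroup G) p z V)

include C in
lemma comm_of_vec {y u : G} (hy : y ∈ (P : Subgroup G)) (hu : u ∈ (P : Subgroup G))
    (hyu : y * u * y⁻¹ * u⁻¹ = z) (x : ↥(P : Subgroup G)) {β γ : ZMod p}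
    (hx : S.vec x = β • S.vec ⟨u, hu⟩ + γ • S.vec ⟨y, hy⟩) :
    y * (x : G) * y⁻¹ * (x : G)⁻¹ = z ^ β.val := by
  set uu : ↥(P : Subgroup G) := ⟨u, hu⟩
  set yy : ↥(P : Subgroup G) := ⟨y, hy⟩
  set x' : ↥(P : Subgroup G) := uu ^ β.val * yy ^ γ.val with hx'
  have h1 : S.vec x' = S.vec x := by
    rw [hx, hx', S.vec_mul, S.vec_pow_smul _ _ (C.exp u hu), S.vec_pow_smul _ _ (C.exp y hy)]
  have h2 := (S.vec_eq_iff x' x).1 h1
  set ζ : G := ((x'⁻¹ * x : ↥(P : Subgroup G)) : G) with hζ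
  have h3 : (x : G) = (x' : G) * ζ := by
    rw [hζ]
    push_cast
    group
  have hζP : ζ ∈ (P : Subgroup G) := C.zpowers_le h2
  have hf : y * ζ * y⁻¹ * ζ⁻¹ = 1 := by
    rw [C.comm_of_zpowers h2 hy]
    group
  have hx'mem : (x' : G) ∈ (P : Subgroup G) := x'.2
  rw [h3, C.comm_mul hy hx'mem hζP, hf, mul_one]
  have h4 : (x' : G) = u ^ β.val * y ^ γ.val := by
    rw [hx']
    push_cast
    rfl
  rw [h4, C.comm_mul hy (Subgroup.pow_mem _ hu _) (Subgroup.pow_mem _ hy _),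
    C.comm_pow_right hy hu, hyu]
  have h5 : y * y ^ γ.val * y⁻¹ * (y ^ γ.val)⁻¹ = 1 := by
    rw [← pow_succ', pow_succ]
    group
  rw [h5, mul_one]

include C in
lemma indep {y u : G} (hy : y ∈ (P : Subgroup G)) (hy' : y ∉ zpowers z) (hu : u ∈ (P : Subgroup G))
    (hyu : y * u * y⁻¹ * u⁻¹ = z) {s t : ZMod p}
    (h : s • S.vec ⟨y, hy⟩ + t • S.vec ⟨u, hu⟩ = 0) : s = 0 ∧ t = 0 := by
  set uu : ↥(P : Subgroup G) := ⟨u, hu⟩
  set yy : ↥(P : Subgroup G) := ⟨y, hy⟩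
  set x : ↥(P : Subgroup G) := uu ^ t.val * yy ^ s.val with hx
  have h1 : S.vec x = 0 := by
    rw [hx, S.vec_mul, S.vec_pow_smul _ _ (C.exp u hu), S.vec_pow_smul _ _ (C.exp y hy), add_comm]
    exact h
  have h2 := (S.vec_zero x).1 h1
  have h3 := comm_of_vec P C S hy hu hyu x (β := t) (γ := s) (by
    rw [hx, S.vec_mul, S.vec_pow_smul _ _ (C.exp u hu), S.vec_pow_smul _ _ (C.exp y hy)])
  have h4 : y * (x : G) * y⁻¹ * (x : G)⁻¹ = 1 := by
    rw [C.comm_of_zpowers h2 hy]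
    group
  rw [h4] at h3
  have ht : t = 0 := by
    have h5 : orderOf z ∣ t.val := orderOf_dvd_of_pow_eq_one h3.symm
    rw [C.orderOf_z] at h5
    have h6 : t.val < p := ZMod.val_lt t
    have h7 := Nat.eq_zero_of_dvd_of_lt h5 h6
    exact (ZMod.val_eq_zero t).1 h7
  refine ⟨?_, ht⟩
  by_contra hs
  apply hy'
  have h8 : y ^ s.val ∈ zpowers z := by
    have : (x : G) = y ^ s.val := by
      rw [hx, ht]
      simp [yy]
    rwa [← this]
  have h9 := Subgroup.pow_mem _ h8 (s⁻¹).val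
  rw [← pow_val_mul (C.exp y hy), mul_inv_cancel₀ hs, pow_val_one] at h9
  exact h9

include C in
lemma exists_coords {y u : G} (hy : y ∈ (P : Subgroup G)) (hy' : y ∉ zpowers z)
    (hu : u ∈ (P : Subgroup G)) (hyu : y * u * y⁻¹ * u⁻¹ = z) (v : V) :
    ∃ β γ : ZMod p, v = β • S.vec ⟨u, hu⟩ + γ • S.vec ⟨y, hy⟩ := by
  have hli : LinearIndependent (ZMod p) ![S.vec ⟨y, hy⟩, S.vec ⟨u, hu⟩] := by
    rw [LinearIndependent.pair_iff]
    intro s t h
    exact indep P C S hy hy' hu hyu h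
  have hspan := hli.span_eq_top_of_card_eq_finrank' (by
    rw [S.finrank_eq C]
    simp)
  have hv : v ∈ Submodule.span (ZMod p) (Set.range ![S.vec ⟨y, hy⟩, S.vec ⟨u, hu⟩]) := by
    rw [hspan]
    exact Submodule.mem_top
  rw [Matrix.range_cons, Matrix.range_cons, Matrix.range_empty, Set.union_empty,
    Set.singleton_union, Submodule.mem_span_pair] at hv
  obtain ⟨a, b, hab⟩ := hv
  exact ⟨b, a, by rw [← hab, add_comm]⟩

include C in
/-- **The key computation.** -/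
theorem key {y : G} (hy : y ∈ (P : Subgroup G)) (hy' : y ∉ zpowers z) {a : ZMod p} (ha : a ≠ 0)
    (hrad : ∃ h : G, h * z * h⁻¹ = z ^ a.val ∧ h * y * h⁻¹ = y ^ (a⁻¹).val) :
    ∃ w : ↥(normalizer (((P : Subgroup G)) : Set G)),
      (S.ρ w (S.vec ⟨y, hy⟩) = a⁻¹ • S.vec ⟨y, hy⟩) ∧
      ∀ k : ℕ, (∃ μ : ZMod p, ∀ v, S.ρ (w ^ k) v = μ • v) → a ^ (3 * k) = 1 := by
  obtain ⟨h, h1, h2⟩ := hrad
  have hmn : ((a.val : ℕ) : ZMod p) * (((a⁻¹).val : ℕ) : ZMod p) = 1 := by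
    rw [ZMod.natCast_zmod_val, ZMod.natCast_zmod_val]
    exact mul_inv_cancel₀ ha
  obtain ⟨w, hwN, hw1, ζ, hζ, hw2⟩ := exists_normalizing P C hy hmn h1 h2
  obtain ⟨u, hu, hyu⟩ := C.exists_comm_eq hy hy'
  refine ⟨⟨w, hwN⟩, ?_, ?_⟩
  · have hyN : w * y * w⁻¹ ∈ (P : Subgroup G) := (Subgroup.mem_normalizer_iff.1 hwN y).1 hy
    have e1 := S.ρ_vec ⟨w, hwN⟩ ⟨y, hy⟩ ⟨w * y * w⁻¹, hyN⟩ rfl
    rw [e1]
    have hζP : ζ ∈ (P : Subgroup G) := C.zpowers_le hζ
    have e2 : (⟨w * y * w⁻¹, hyN⟩ : ↥(P : Subgroup G)) =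
        (⟨y, hy⟩ : ↥(P : Subgroup G)) ^ (a⁻¹).val * ⟨ζ, hζP⟩ := Subtype.ext hw2
    rw [e2, S.vec_mul, S.vec_pow_smul _ _ (C.exp y hy), (S.vec_zero ⟨ζ, hζP⟩).2 hζ, add_zero]
  · have hyN : w * y * w⁻¹ ∈ (P : Subgroup G) := (Subgroup.mem_normalizer_iff.1 hwN y).1 hy
    have huN : w * u * w⁻¹ ∈ (P : Subgroup G) := (Subgroup.mem_normalizer_iff.1 hwN u).1 hu
    have hζP : ζ ∈ (P : Subgroup G) := C.zpowers_le hζ
    have e1 := S.ρ_vec ⟨w, hwN⟩ ⟨y, hy⟩ ⟨w * y * w⁻¹, hyN⟩ rfl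
    have e2 : (⟨w * y * w⁻¹, hyN⟩ : ↥(P : Subgroup G)) =
        (⟨y, hy⟩ : ↥(P : Subgroup G)) ^ (a⁻¹).val * ⟨ζ, hζP⟩ := Subtype.ext hw2
    have hρy : S.ρ ⟨w, hwN⟩ (S.vec ⟨y, hy⟩) = a⁻¹ • S.vec ⟨y, hy⟩ := by
      rw [e1, e2, S.vec_mul, S.vec_pow_smul _ _ (C.exp y hy), (S.vec_zero ⟨ζ, hζP⟩).2 hζ, add_zero]
    obtain ⟨β, γ, hβγ⟩ := exists_coords P C S hy hy' hu hyu (S.vec ⟨w * u * w⁻¹, huN⟩)
    have hρu : S.ρ ⟨w, hwN⟩ (S.vec ⟨u, hu⟩) = β • S.vec ⟨u, hu⟩ + γ • S.vec ⟨y, hy⟩ := by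
      rw [S.ρ_vec ⟨w, hwN⟩ ⟨u, hu⟩ ⟨w * u * w⁻¹, huN⟩ rfl, hβγ]
    have hf := comm_of_vec P C S hy hu hyu ⟨w * u * w⁻¹, huN⟩ hβγ
    simp only at hf
    set u' := w * u * w⁻¹ with hu'
    -- the value of `β`
    have hβ : β = a * a := by
      have e3 : w * z * w⁻¹ = (w * y * w⁻¹) * u' * (w * y * w⁻¹)⁻¹ * u'⁻¹ := by
        rw [← hyu, hu']
        group
      rw [hw1, hw2, C.comm_mul_left (Subgroup.pow_mem _ hy _) hζP huN] at e3
      have e4 : ζ * u' * ζ⁻¹ * u'⁻¹ = 1 := by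
        rw [← C.comm_of_zpowers hζ huN]
        group
      rw [e4, mul_one, C.comm_pow_left hy huN, hf, ← pow_mul] at e3
      have e5 := (pow_eq_pow_iff_cast C.orderOf_z).1 e3
      push_cast at e5
      rw [ZMod.natCast_zmod_val, ZMod.natCast_zmod_val, ZMod.natCast_zmod_val] at e5
      calc β = β * (a⁻¹ * a) := by rw [inv_mul_cancel₀ ha, mul_one]
        _ = (β * a⁻¹) * a := by ring
        _ = a * a := by rw [← e5]
    have hpowy : ∀ k : ℕ, S.ρ (⟨w, hwN⟩ ^ k) (S.vec ⟨y, hy⟩) = (a⁻¹) ^ k • S.vec ⟨y, hy⟩ := by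
      intro k
      induction k with
      | zero => simp
      | succ k ih =>
        rw [pow_succ, map_mul, Module.End.mul_apply, hρy, map_smul, ih, smul_smul, pow_succ']
    have hpowu : ∀ k : ℕ, ∃ γ' : ZMod p,
        S.ρ (⟨w, hwN⟩ ^ k) (S.vec ⟨u, hu⟩) = β ^ k • S.vec ⟨u, hu⟩ + γ' • S.vec ⟨y, hy⟩ := by
      intro k
      induction k with
      | zero => exact ⟨0, by simp⟩
      | succ k ih =>
        obtain ⟨γ', h5⟩ := ih
        refine ⟨β * γ' + γ * (a⁻¹) ^ k, ?_⟩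
        rw [pow_succ, map_mul, Module.End.mul_apply, hρu, map_add, map_smul, map_smul, h5, hpowy,
          pow_succ']
        module
    rintro k ⟨μ, hμ⟩
    obtain ⟨γ', h5⟩ := hpowu k
    have h6 : μ • S.vec ⟨y, hy⟩ = (a⁻¹) ^ k • S.vec ⟨y, hy⟩ := by rw [← hμ, hpowy]
    have h7 : μ • S.vec ⟨u, hu⟩ = β ^ k • S.vec ⟨u, hu⟩ + γ' • S.vec ⟨y, hy⟩ := by rw [← hμ, h5]
    have h8 := indep P C S hy hy' hu hyu (s := μ - (a⁻¹) ^ k) (t := 0) (by
      rw [sub_smul, h6, sub_self, zero_smul, add_zero])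
    have h9 := indep P C S hy hy' hu hyu (s := -γ') (t := μ - β ^ k) (by
      rw [sub_smul, h7]
      module)
    have e6 : μ = (a⁻¹) ^ k := sub_eq_zero.1 h8.1
    have e7 : μ = β ^ k := sub_eq_zero.1 h9.2
    have e8 : (a⁻¹) ^ k = (a * a) ^ k := by rw [← e6, e7, hβ]
    have e9 : a ^ (3 * k) = (a * a) ^ k * a ^ k := by
      rw [mul_pow, ← pow_add, ← pow_add]
      congr 1
      ring
    rw [e9, ← e8, ← mul_pow, inv_mul_cancel₀ ha, one_pow]

end Key

end Cfsg.Agent.Lib.ExtraCube.Rep
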